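import Mathlib

/-!
# Generators and relations for groups with cyclic Sylow subgroups
-/

set_option autoImplicit false

namespace Cfsg.Agent.GT.Frob

variable {G : Type*} [Group G]

theorem pow_inv_conj_pow {x y : G} {r : ℕ} (h : x⁻¹ * y * x = y ^ r) (k : ℕ) :
    (x ^ k)⁻¹ * y * x ^ k = y ^ r ^ k := by
  induction k with
  | zero => simp
  | succ k ih =>
    calc (x ^ (k + 1))⁻¹ * y * x ^ (k + 1) = x⁻¹ * ((x ^ k)⁻¹ * y * x ^ k) * x⁻¹⁻¹ := by
          rw [pow_succ]; group
      _ = (x⁻¹ * y * x⁻¹⁻¹) ^ r ^ k := by rw [ih, conj_pow]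
      _ = y ^ r ^ (k + 1) := by rw [inv_inv, h, ← pow_mul, pow_succ']

/-- Every subgroup of a cyclic normal subgroup generated by a power of the generator is normal. -/
theorem normal_zpowers_pow {y : G} [h : (Subgroup.zpowers y).Normal] (k : ℕ) :
    (Subgroup.zpowers (y ^ k)).Normal := by
  refine ⟨fun a ha g => ?_⟩
  obtain ⟨j, rfl⟩ := Subgroup.mem_zpowers_iff.mp ha
  obtain ⟨i, hi⟩ := Subgroup.mem_zpowers_iff.mp (h.conj_mem y (Subgroup.mem_zpowers y) g)
  rw [← conj_zpow, ← conj_pow, ← hi, ← zpow_natCast (y ^ i), ← zpow_mul y, mul_comm, zpow_mul,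
    zpow_natCast]
  exact Subgroup.zpow_mem _ (Subgroup.zpow_mem _ (Subgroup.mem_zpowers _) _) _

/-- A finite group with cyclic Sylow subgroups is `⟨y⟩ ⋊ ⟨x⟩` with `⟨y⟩` the commutator
subgroup. -/
theorem exists_generators_of_isZGroup [Finite G] [IsZGroup G] :
    ∃ (x y : G) (r : ℕ), Subgroup.zpowers y = commutator G ∧
      Subgroup.IsComplement' (Subgroup.zpowers y) (Subgroup.zpowers x) ∧
      x⁻¹ * y * x = y ^ r ∧ (r - 1).Coprime (orderOf y) ∧ (orderOf x).Coprime (orderOf y) ∧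
      1 ≤ r := by
  obtain ⟨H, hH⟩ :=
    Subgroup.exists_right_complement'_of_coprime (IsZGroup.coprime_commutator_index G)
  have h1 : Abelianization G ≃* H := hH.symm.QuotientMulEquiv
  have hHc : IsCyclic H := isCyclic_of_surjective _ h1.surjective
  obtain ⟨x, hx⟩ := (Subgroup.isCyclic_iff_exists_zpowers_eq_top H).mp hHc
  obtain ⟨y, hy⟩ := (Subgroup.isCyclic_iff_exists_zpowers_eq_top _).mp
    (IsZGroup.isCyclic_commutator G)
  have hcop := IsZGroup.coprime_commutator_index G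
  rw [hH.symm.index_eq_card, ← hx, ← hy, Nat.card_zpowers, Nat.card_zpowers] at hcop
  rw [← hx, ← hy] at hH
  have hn : (Subgroup.zpowers y).Normal := hy ▸ inferInstance
  obtain ⟨r₀, hr₀⟩ : ∃ r : ℕ, y ^ r = x⁻¹ * y * x :=
    (Submonoid.mem_powers_iff _ _).mp (mem_powers_iff_mem_zpowers.mpr
      (by simpa using hn.conj_mem y (Subgroup.mem_zpowers y) x⁻¹))
  have hr : x⁻¹ * y * x = y ^ (r₀ + orderOf y) := by rw [pow_add, pow_orderOf_eq_one, mul_one, hr₀]
  have h0 := orderOf_pos y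
  refine ⟨x, y, r₀ + orderOf y, hy, hH, hr, ?_, hcop.symm, by omega⟩
  set r := r₀ + orderOf y
  have hN := normal_zpowers_pow (y := y) (r - 1)
  refine mem_zpowers_pow_iff.mp ?_
  let π := QuotientGroup.mk' (Subgroup.zpowers (y ^ (r - 1)))
  have hxy : Commute (π x) (π y) := by
    have h2 : π (y ^ (r - 1)) = 1 := (QuotientGroup.eq_one_iff _).mpr (Subgroup.mem_zpowers _)
    have h3 : π (x⁻¹ * y * x) = π y := by
      have h4 : y ^ r = y ^ (r - 1) * y := by rw [← pow_succ, Nat.sub_add_cancel (by omega)]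
      rw [hr, h4, map_mul, h2, one_mul]
    rw [map_mul, map_mul, map_inv] at h3
    calc π x * π y = π x * ((π x)⁻¹ * π y * π x) := by rw [h3]
      _ = π y * π x := by group
  have hall : ∀ a b : G, Commute (π a) (π b) := by
    intro a b
    obtain ⟨⟨⟨_, i, rfl⟩, ⟨_, j, rfl⟩⟩, rfl⟩ := hH.2 a
    obtain ⟨⟨⟨_, k, rfl⟩, ⟨_, l, rfl⟩⟩, rfl⟩ := hH.2 b
    simp only [map_mul, map_zpow]
    exact ((Commute.zpow_zpow_self _ _ _).mul_right (hxy.symm.zpow_zpow _ _)).mul_left
      ((hxy.zpow_zpow _ _).mul_right (Commute.zpow_zpow_self _ _ _))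
  have hle : commutator G ≤ Subgroup.zpowers (y ^ (r - 1)) := by
    rw [commutator_def, Subgroup.commutator_le]
    intro a _ b _
    rw [← QuotientGroup.eq_one_iff]
    change π _ = 1
    rw [map_commutatorElement, commutatorElement_eq_one_iff_commute]
    exact hall a b
  exact hle (hy ▸ Subgroup.mem_zpowers y)

theorem closure_pair_eq_top_of_isComplement' {x y : G}
    (h : Subgroup.IsComplement' (Subgroup.zpowers y) (Subgroup.zpowers x)) :
    Subgroup.closure {x, y} = ⊤ := by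
  rw [eq_top_iff, ← h.sup_eq_top, sup_le_iff, Subgroup.zpowers_le, Subgroup.zpowers_le]
  exact ⟨Subgroup.subset_closure (by simp), Subgroup.subset_closure (by simp)⟩

theorem pow_mod_orderOf_eq_of_commute {x y : G} {r k : ℕ} (h : x⁻¹ * y * x = y ^ r)
    (hk : Commute (x ^ k) y) : r ^ k % orderOf y = 1 % orderOf y := by
  have h1 := pow_inv_conj_pow h k
  rw [mul_assoc, ← hk.eq, inv_mul_cancel_left] at h1
  exact pow_eq_pow_iff_modEq.mp (by rw [← h1, pow_one])

/-- The presentation of a split metacyclic group. -/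
theorem nonempty_mulEquiv_presentedGroup {x y : G} {n m r : ℕ} (hm : 0 < m)
    (hc : Subgroup.IsComplement' (Subgroup.zpowers y) (Subgroup.zpowers x))
    (hx : orderOf x = n) (hy : orderOf y = m) (h : x⁻¹ * y * x = y ^ r) :
    Nonempty (G ≃* PresentedGroup
      ({FreeGroup.of (0 : Fin 2) ^ n, FreeGroup.of (1 : Fin 2) ^ m,
        (FreeGroup.of (0 : Fin 2))⁻¹ * FreeGroup.of 1 * FreeGroup.of 0 *
          (FreeGroup.of (1 : Fin 2) ^ r)⁻¹} : Set (FreeGroup (Fin 2)))) := by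
  set R : Set (FreeGroup (Fin 2)) := {FreeGroup.of (0 : Fin 2) ^ n, FreeGroup.of (1 : Fin 2) ^ m,
        (FreeGroup.of (0 : Fin 2))⁻¹ * FreeGroup.of 1 * FreeGroup.of 0 *
          (FreeGroup.of (1 : Fin 2) ^ r)⁻¹} with hR
  have hrel : ∀ w ∈ R, FreeGroup.lift ![x, y] w = 1 := by
    rintro w (rfl | rfl | rfl)
    · simp [← hx]
    · simp [← hy]
    · simp [h]
  let f : PresentedGroup R →* G := PresentedGroup.toGroup hrel
  let X : PresentedGroup R := PresentedGroup.of 0
  let Y : PresentedGroup R := PresentedGroup.of 1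
  have hfX : f X = x := PresentedGroup.toGroup.of hrel
  have hfY : f Y = y := PresentedGroup.toGroup.of hrel
  have hX : X ^ n = 1 := by
    have := PresentedGroup.one_of_mem (rels := R) (x := FreeGroup.of (0 : Fin 2) ^ n)
      (by simp [hR])
    rwa [map_pow] at this
  have hY : Y ^ m = 1 := by
    have := PresentedGroup.one_of_mem (rels := R) (x := FreeGroup.of (1 : Fin 2) ^ m)
      (by simp [hR])
    rwa [map_pow] at this
  have hXY : X⁻¹ * Y * X = Y ^ r := by
    have := PresentedGroup.one_of_mem (rels := R)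
      (x := (FreeGroup.of (0 : Fin 2))⁻¹ * FreeGroup.of 1 * FreeGroup.of 0 *
          (FreeGroup.of (1 : Fin 2) ^ r)⁻¹) (by simp [hR])
    simp only [map_mul, map_inv, map_pow] at this
    exact mul_inv_eq_one.mp this
  have hfin : Finite (Subgroup.zpowers Y) :=
    (finite_zpowers.mpr (isOfFinOrder_iff_pow_eq_one.mpr ⟨m, hm, hY⟩)).to_subtype
  have hgen : Subgroup.closure {X, Y} = ⊤ := by
    rw [← PresentedGroup.closure_range_of R]
    congr 1
    ext z
    simp [X, Y, Fin.exists_fin_two, eq_comm]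
  have hN : (Subgroup.zpowers Y).Normal := by
    rw [← Subgroup.normalizer_eq_top_iff, eq_top_iff, ← hgen, Subgroup.closure_le]
    rintro z (rfl | rfl)
    · rw [SetLike.mem_coe, ← Subgroup.inv_mem_iff]
      refine Subgroup.mem_normalizer_fintype fun w hw => ?_
      obtain ⟨k, rfl⟩ := Subgroup.mem_zpowers_iff.mp hw
      rw [← conj_zpow, inv_inv, hXY]
      exact Subgroup.zpow_mem _ (Subgroup.pow_mem _ (Subgroup.mem_zpowers _) _) _
    · exact Subgroup.le_normalizer (Subgroup.mem_zpowers _)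
  have hsup : Subgroup.zpowers Y ⊔ Subgroup.zpowers X = ⊤ := by
    rw [eq_top_iff, ← hgen, Subgroup.closure_le]
    rintro z (rfl | rfl)
    · exact Subgroup.mem_sup_right (Subgroup.mem_zpowers _)
    · exact Subgroup.mem_sup_left (Subgroup.mem_zpowers _)
  refine ⟨(MulEquiv.ofBijective f ⟨(injective_iff_map_eq_one f).mpr fun w hw => ?_,
    fun g => ?_⟩).symm⟩
  · obtain ⟨_, ⟨i, rfl⟩, _, ⟨j, rfl⟩, rfl⟩ :=
      Subgroup.mem_sup_of_normal_left.mp (hsup ▸ Subgroup.mem_top w)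
    simp only [map_mul, map_zpow, hfX, hfY] at hw
    have h1 : y ^ i = 1 := by
      refine Subgroup.disjoint_def.mp hc.disjoint ⟨i, rfl⟩ ?_
      rw [eq_inv_of_mul_eq_one_left hw]
      exact Subgroup.inv_mem _ ⟨j, rfl⟩
    rw [h1, one_mul] at hw
    obtain ⟨a, rfl⟩ := orderOf_dvd_iff_zpow_eq_one.mpr h1
    obtain ⟨b, rfl⟩ := orderOf_dvd_iff_zpow_eq_one.mpr hw
    simp only [zpow_mul, hx, hy, zpow_natCast, hX, hY, one_zpow, one_mul]
  · obtain ⟨⟨⟨_, i, rfl⟩, ⟨_, j, rfl⟩⟩, rfl⟩ := hc.2 g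
    exact ⟨Y ^ i * X ^ j, by simp only [map_mul, map_zpow, hfX, hfY]⟩

end Cfsg.Agent.GT.Frob
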