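import Mathlib
import Cfsg.Agent.GT.MinNormal
import Cfsg.Agent.GT.TransferSylow
import Cfsg.Agent.GT.FixedPointFreeThompson

/-! A subgroup that is central in every proper overgroup. -/

set_option autoImplicit false
open Cfsg

namespace Cfsg.Agent.GT.CU

variable {G : Type*} [Group G] [Finite G]

/-- If `A` is centralised by every proper subgroup containing it, but is not central, then the group
is solvable. -/
theorem isSolvable_of_central_in_proper {A : Subgroup G} (hAA : A ≤ Subgroup.centralizer (A : Set G))
    (hprop : ∀ H : Subgroup G, A ≤ H → H ≠ ⊤ → H ≤ Subgroup.centralizer (A : Set G))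
    (hZ : ¬ A ≤ Subgroup.center G) : Group.IsSolvable G := by
  set M := Subgroup.centralizer (A : Set G) with hM
  have hMtop : M ≠ ⊤ := by
    intro h
    apply hZ
    intro a ha
    rw [Subgroup.mem_center_iff]
    intro g
    have : g ∈ M := h ▸ Subgroup.mem_top g
    exact (this a ha).symm
  have solv_top : ∀ S : Subgroup G, A ≤ S → ¬ S ≤ M → Group.IsSolvable S → Group.IsSolvable G := by
    intro S h1 h2 h3
    have : S = ⊤ := by
      by_contra h
      exact h2 (hprop S h1 h)
    subst this
    exact solvable_of_surjective (f := (⊤ : Subgroup G).subtype) (fun g => ⟨⟨g, trivial⟩, rfl⟩)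
  have hAcomm : IsMulCommutative A := ⟨⟨fun a b => Subtype.ext (hAA b.2 a a.2)⟩⟩
  by_cases hn : M.Normal
  · obtain ⟨g, hg⟩ : ∃ g, g ∉ M := by
      by_contra h
      push Not at h
      exact hMtop (eq_top_iff.2 fun g _ => h g)
    let Z0 : Subgroup G := M ⊓ Subgroup.centralizer (M : Set G)
    haveI : Z0.Normal := inferInstance
    haveI : IsMulCommutative Z0 := ⟨⟨fun a b => Subtype.ext (b.2.2 a a.2.1)⟩⟩
    haveI : Group.IsSolvable Z0 := isSolvable_of_comm fun a b => mul_comm' a b
    haveI : Group.IsSolvable (Subgroup.zpowers g) := isSolvable_of_comm fun a b => mul_comm' a b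
    refine solv_top (Subgroup.zpowers g ⊔ Z0) ?_ ?_ (GT.isSolvable_sup _ _)
    · refine le_trans (le_inf hAA ?_) le_sup_right
      intro a ha m hm
      exact (hm a ha).symm
    · intro h
      exact hg (h (Subgroup.mem_sup_left (Subgroup.mem_zpowers g)))
  · have hNM : Subgroup.normalizer (M : Set G) ≤ M := by
      refine hprop _ (hAA.trans Subgroup.le_normalizer) ?_
      intro h
      exact hn (Subgroup.normalizer_eq_top_iff.1 h)
    let Z := Subgroup.center G
    have hZM : Z ≤ M := Subgroup.center_le_centralizer _
    have hC : ∀ x ∈ M, x ∉ Z → Subgroup.centralizer ({x} : Set G) ≤ M := by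
      intro x hx hxZ
      refine hprop _ ?_ ?_
      · intro a ha
        rw [Subgroup.mem_centralizer_singleton_iff]
        exact hx a ha
      · intro h
        apply hxZ
        rw [Subgroup.mem_center_iff]
        intro g
        have : g ∈ Subgroup.centralizer ({x} : Set G) := h ▸ Subgroup.mem_top g
        exact Subgroup.mem_centralizer_singleton_iff.1 this
    have hTI : ∀ g x : G, x ∈ M → x ∉ Z → g * x * g⁻¹ ∈ M → g ∈ M := by
      intro g x hx hxZ hy
      have hyZ : g * x * g⁻¹ ∉ Z := by
        intro h
        apply hxZ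
        have := (inferInstance : Z.Normal).conj_mem _ h g⁻¹
        simpa [mul_assoc] using this
      have h1 : A ≤ M.comap (MulAut.conj g).toMonoidHom := by
        intro a ha
        refine hC _ hy hyZ ?_
        rw [Subgroup.mem_centralizer_singleton_iff]
        have := hx a ha
        simp only [MulEquiv.toMonoidHom_eq_coe, MonoidHom.coe_coe, MulAut.conj_apply]
        calc g * a * g⁻¹ * (g * x * g⁻¹) = g * (a * x) * g⁻¹ := by group
          _ = g * (x * a) * g⁻¹ := by rw [this]
          _ = _ := by group
      have h2 : M.comap (MulAut.conj g).toMonoidHom ≠ ⊤ := by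
        intro h
        apply hMtop
        rw [eq_top_iff]
        intro y _
        have : g⁻¹ * y * g ∈ M.comap (MulAut.conj g).toMonoidHom := h ▸ Subgroup.mem_top _
        simpa [mul_assoc] using this
      have h3 := hprop _ h1 h2
      have h4 : g⁻¹ ∈ Subgroup.normalizer (M : Set G) := by
        refine GT.Tr.mem_normalizer_of_conj_mem fun m hm => h3 ?_
        simpa [mul_assoc] using hm
      simpa using hNM (inv_mem h4)
    let π := QuotientGroup.mk' Z
    have hF : IsFrobeniusComplement (M.map π) := by
      rw [GT.Frob.isFrobeniusComplement_iff]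
      refine ⟨?_, ?_, ?_⟩
      · intro h
        rw [Subgroup.map_eq_bot_iff, QuotientGroup.ker_mk'] at h
        exact hZ (hAA.trans h)
      · intro h
        apply hMtop
        have := congrArg (Subgroup.comap π) h
        rwa [Subgroup.comap_map_eq, QuotientGroup.ker_mk', sup_eq_left.2 hZM, Subgroup.comap_top] at this
      · rintro g _ ⟨x, hx, rfl⟩ hx1 hy
        obtain ⟨g, rfl⟩ := QuotientGroup.mk'_surjective Z g
        have hxZ : x ∉ Z := fun h => hx1 ((QuotientGroup.eq_one_iff x).2 h)
        have : g * x * g⁻¹ ∈ (M.map π).comap π := by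
          rw [Subgroup.mem_comap, map_mul, map_mul, map_inv]; exact hy
        rw [Subgroup.comap_map_eq, QuotientGroup.ker_mk', sup_eq_left.2 hZM] at this
        exact ⟨g, hTI g x hx hxZ this, rfl⟩
    haveI := hF.kernel_isNilpotent
    haveI := hF.kernel_normal
    haveI : Group.IsSolvable Z := isSolvable_of_comm fun a b => mul_comm' a b
    haveI : Group.IsSolvable (hF.kernel.comap π) := GT.isSolvable_comap_mk' _
    haveI : Group.IsSolvable A := isSolvable_of_comm fun a b => mul_comm' a b
    refine solv_top (A ⊔ hF.kernel.comap π) le_sup_left ?_ (GT.isSolvable_sup _ _)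
    intro h
    apply hF.kernel_ne_bot
    refine hF.eq_bot_of_normal_of_le ?_
    intro y hy
    obtain ⟨y, rfl⟩ := QuotientGroup.mk'_surjective Z y
    exact ⟨y, h (Subgroup.mem_sup_right hy), rfl⟩

end Cfsg.Agent.GT.CU
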