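import Mathlib
import Cfsg.Agent.GT.ThompsonComm

/-!
# A twisted form of Thompson's replacement lemma

`A` is a largest abelian subgroup of `S` acting on a subgroup `X` of class two and `x` is an
element with `[A, x] ≤ X`. When `[A, x]` is not abelian a largest abelian subgroup is built from
the elements `[b, x]² a'`.
-/

set_option autoImplicit false

namespace Cfsg.Agent.GT

open Subgroup
open scoped commutatorElement

section Count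

theorem tw_card_eq {K V : Type*} [Group K] [Group V] (f : K →* V) (L : Subgroup K) :
    Nat.card L = Nat.card ↥(L ⊓ f.ker) * Nat.card (L.map f) := by
  rw [← relIndex_ker, inf_comm, ← relIndex_bot_left, ← relIndex_bot_left (f.ker ⊓ L),
    ← inf_relIndex_right f.ker L]
  exact (relIndex_mul_relIndex _ _ _ bot_le inf_le_right).symm

theorem tw_count {A V : Type*} [Group A] [Group V] (t : A →* V) (H : Subgroup A)
    (g : H →* V) (hg : g.range ≤ t.range) :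
    Nat.card (((t.ker.subgroupOf H).map g).comap t) * Nat.card t.range *
        Nat.card ↥(t.ker.subgroupOf H ⊓ (H.map t).comap g) =
      Nat.card A * Nat.card ↥(((t.ker.subgroupOf H).map g).comap t ⊓ H) := by
  set H' := t.ker.subgroupOf H with hH'
  have h1 : Nat.card ((H'.map g).comap t) = Nat.card t.ker * Nat.card (H'.map g) := by
    rw [tw_card_eq t, inf_of_le_right (ker_le_comap t _), map_comap_eq,
      inf_of_le_right ((map_le_range g H').trans hg)]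
  have h2 : Nat.card A = Nat.card t.ker * Nat.card t.range := by
    rw [← card_top, tw_card_eq t, top_inf_eq, ← MonoidHom.range_eq_map]
  have h3 : Nat.card ↥((H'.map g).comap t ⊓ H) =
      Nat.card H' * Nat.card ↥(H'.map g ⊓ H.map t) := by
    rw [tw_card_eq t]
    congr 1
    · rw [inf_right_comm, inf_of_le_right (ker_le_comap t _), hH', ← inf_subgroupOf_right]
      exact (Nat.card_congr (subgroupOfEquivOfLe inf_le_right).toEquiv).symm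
    · congr 2
      refine le_antisymm (le_inf ((map_mono inf_le_left).trans (map_comap_le _ _))
        (map_mono inf_le_right)) ?_
      rintro _ ⟨h4, b, h5, rfl⟩
      exact ⟨b, ⟨h4, h5⟩, rfl⟩
  have h4 : Nat.card ↥(H' ⊓ (H.map t).comap g) =
      Nat.card ↥(H' ⊓ g.ker) * Nat.card ↥(H'.map g ⊓ H.map t) := by
    rw [tw_card_eq g, inf_assoc, inf_of_le_right (ker_le_comap g _)]
    congr 3
    refine le_antisymm (le_inf (map_mono inf_le_left)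
      ((map_mono inf_le_right).trans (map_comap_le _ _))) ?_
    rintro _ ⟨⟨b, h5, rfl⟩, h4⟩
    exact ⟨b, ⟨h5, h4⟩, rfl⟩
  rw [h1, h2, h3, h4, tw_card_eq g H']
  ring

end Count

variable {G : Type*} [Group G]

theorem tw_mul_left (a b x : G) : ⁅a * b, x⁆ = ⁅a, ⁅b, x⁆⁆ * ⁅b, x⁆ * ⁅a, x⁆ := by
  simp only [commutatorElement_def]; group

theorem tw_mul_right (a v w : G) : ⁅a, v * w⁆ = ⁅a, v⁆ * (v * ⁅a, w⁆ * v⁻¹) := by
  simp only [commutatorElement_def]; group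

theorem tw_conj (a v : G) : a * v * a⁻¹ = ⁅a, v⁆ * v := by
  simp only [commutatorElement_def]; group

/-- The setting of the twisted replacement lemma. -/
structure Tw (A X Z : Subgroup G) (x : G) : Prop where
  comm : ∀ a ∈ A, ∀ b ∈ A, Commute a b
  phi_mem : ∀ a ∈ A, ∀ v ∈ X, ⁅a, v⁆ ∈ X
  phi_cent : ∀ a ∈ A, ∀ v ∈ X, ∀ w ∈ X, Commute ⁅a, v⁆ w
  gam : ∀ a ∈ A, ⁅a, x⁆ ∈ X
  ZX : Z ≤ X
  Zc : ∀ z ∈ Z, ∀ w ∈ X, Commute z w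
  Zx : ∀ z ∈ Z, Commute z x
  xX : ∀ v ∈ X, ⁅x, v⁆ ∈ Z
  XX : ∀ v ∈ X, ∀ w ∈ X, ⁅v, w⁆ ∈ Z
  XXA : ∀ v ∈ X, ∀ w ∈ X, ∀ c ∈ A, ⁅c, ⁅v, w⁆⁆ = 1
  phiZA : ∀ a ∈ A, ∀ z ∈ Z, ∀ c ∈ A, ⁅c, ⁅a, z⁆⁆ = 1
  xphi : ∀ a ∈ A, ∀ v ∈ X, ∀ c ∈ A, ⁅c, ⁅x, ⁅a, v⁆⁆⁆ = 1
  odd : ∀ v ∈ X, ∃ n : ℕ, (v ^ 2) ^ n = v
  self : ∀ v ∈ X, (∀ c ∈ A, ⁅c, v⁆ = 1) → v ∈ A

namespace Tw

variable {A X Z : Subgroup G} {x : G} (h : Tw A X Z x)
include h

theorem phi_mul {a v w : G} (ha : a ∈ A) (hv : v ∈ X) (hw : w ∈ X) :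
    ⁅a, v * w⁆ = ⁅a, v⁆ * ⁅a, w⁆ := by
  rw [tw_mul_right, ← (h.phi_cent a ha w hw v hv).eq, mul_inv_cancel_right]

theorem phi_inv {a v : G} (ha : a ∈ A) (hv : v ∈ X) : ⁅a, v⁻¹⁆ = ⁅a, v⁆⁻¹ := by
  rw [eq_inv_iff_mul_eq_one, ← h.phi_mul ha (inv_mem hv) hv, inv_mul_cancel,
    commutatorElement_one_right]

theorem phi_pow {a v : G} (ha : a ∈ A) (hv : v ∈ X) (n : ℕ) : ⁅a, v ^ n⁆ = ⁅a, v⁆ ^ n := by
  induction n with
  | zero => simp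
  | succ n ih => rw [pow_succ, h.phi_mul ha (pow_mem hv n) hv, ih, pow_succ]

theorem phi_A {a b : G} (ha : a ∈ A) (hb : b ∈ A) : ⁅a, b⁆ = 1 :=
  commutatorElement_eq_one_iff_commute.2 (h.comm a ha b hb)

theorem phi_comm {a b v : G} (ha : a ∈ A) (hb : b ∈ A) (hv : v ∈ X) :
    ⁅a, ⁅b, v⁆⁆ = ⁅b, ⁅a, v⁆⁆ := by
  have h1 := tw_mul_left a b v
  rw [(h.comm a ha b hb).eq, tw_mul_left, mul_assoc, mul_assoc,
    (h.phi_cent a ha v hv _ (h.phi_mem b hb v hv)).eq] at h1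
  exact (mul_right_cancel h1).symm

theorem beta_comm {a b : G} (ha : a ∈ A) (hb : b ∈ A) :
    ⁅a, ⁅b, x⁆⁆ = ⁅b, ⁅a, x⁆⁆ * ⁅⁅a, x⁆, ⁅b, x⁆⁆ := by
  have h1 := tw_mul_left a b x
  rw [(h.comm a ha b hb).eq, tw_mul_left] at h1
  rw [commutatorElement_def ⁅a, x⁆, ← mul_assoc, ← mul_assoc, ← mul_assoc, h1]
  group

theorem x_mul {v w : G} (hv : v ∈ X) (hw : w ∈ X) : ⁅x, v * w⁆ = ⁅x, v⁆ * ⁅x, w⁆ := by
  rw [tw_mul_right, ← (h.Zc _ (h.xX w hw) v hv).eq, mul_inv_cancel_right]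

theorem x_Z {z : G} (hz : z ∈ Z) : ⁅x, z⁆ = 1 :=
  commutatorElement_eq_one_iff_commute.2 (h.Zx z hz).symm

theorem theta_mem {b : G} (hb : b ∈ A) : ⁅x, ⁅b, x⁆⁆ ∈ Z := h.xX _ (h.gam b hb)

theorem phi_theta {a b : G} (ha : a ∈ A) (hb : b ∈ A) :
    ⁅a, ⁅x, ⁅b, x⁆⁆⁆ = ⁅x, ⁅a, ⁅b, x⁆⁆⁆ * ⁅⁅a, x⁆, ⁅b, x⁆⁆ := by
  have hga := h.gam a ha
  have hgb := h.gam b hb
  have hβ := h.phi_mem a ha _ hgb
  have h1 : a * ⁅x, ⁅b, x⁆⁆ * a⁻¹ = ⁅⁅a, x⁆ * x, ⁅a, ⁅b, x⁆⁆ * ⁅b, x⁆⁆ := by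
    rw [← tw_conj, ← tw_conj]
    simp only [commutatorElement_def]; group
  have h2 : ⁅⁅a, x⁆, ⁅a, ⁅b, x⁆⁆ * ⁅b, x⁆⁆ = ⁅⁅a, x⁆, ⁅b, x⁆⁆ := by
    rw [tw_mul_right, commutatorElement_eq_one_iff_commute.2 (h.phi_cent a ha _ hgb _ hga).symm,
      one_mul, (h.phi_cent a ha _ hgb _ (h.ZX (h.XX _ hga _ hgb))).eq, mul_inv_cancel_right]
  rw [tw_mul_left, h2, commutatorElement_eq_one_iff_commute.2
    (h.Zc _ (h.xX _ (mul_mem hβ hgb)) _ hga).symm, one_mul, h.x_mul hβ hgb, tw_conj, mul_assoc,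
    (h.Zc _ (h.theta_mem hb) _ (h.ZX (h.XX _ hga _ hgb))).eq, ← mul_assoc] at h1
  exact mul_right_cancel h1

theorem kappa_sq {a b : G} (ha : a ∈ A) (hb : b ∈ A) :
    ⁅a, ⁅x, ⁅b, x⁆⁆⁆ = ⁅b, ⁅x, ⁅a, x⁆⁆⁆ * ⁅⁅a, x⁆, ⁅b, x⁆⁆ ^ 2 := by
  have hk := h.XX _ (h.gam a ha) _ (h.gam b hb)
  rw [h.phi_theta ha hb, h.phi_theta hb ha, h.beta_comm ha hb,
    h.x_mul (h.phi_mem b hb _ (h.gam a ha)) (h.ZX hk), h.x_Z hk, mul_one,
    ← commutatorElement_inv ⁅a, x⁆ ⁅b, x⁆, commutatorElement_inv ⁅a, x⁆ ⁅b, x⁆, pow_two,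
    mul_assoc, ← commutatorElement_inv ⁅b, x⁆ ⁅a, x⁆, mul_inv_cancel_left]

omit h in
/-- The function `c ↦ [c, v]` on `A`. -/
def pi (A : Subgroup G) (v : G) : A → G := fun c => ⁅(c : G), v⁆

omit h in
theorem pi_eq_iff {v w : G} : pi A v = pi A w ↔ ∀ c ∈ A, ⁅c, v⁆ = ⁅c, w⁆ :=
  ⟨fun h c hc => congrFun h ⟨c, hc⟩, fun h => funext fun c => h c c.2⟩

omit h in
theorem pi_eq_one_iff {v : G} : pi A v = 1 ↔ ∀ c ∈ A, ⁅c, v⁆ = 1 :=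
  ⟨fun h c hc => congrFun h ⟨c, hc⟩, fun h => funext fun c => h c c.2⟩

theorem pi_mul {v w : G} (hv : v ∈ X) (hw : w ∈ X) : pi A (v * w) = pi A v * pi A w :=
  funext fun c => h.phi_mul c.2 hv hw

theorem pi_inv {v : G} (hv : v ∈ X) : pi A v⁻¹ = (pi A v)⁻¹ :=
  funext fun c => h.phi_inv c.2 hv

theorem pi_pow {v : G} (hv : v ∈ X) (n : ℕ) : pi A (v ^ n) = pi A v ^ n :=
  funext fun c => h.phi_pow c.2 hv n

theorem pi_comm {v w : G} (hv : v ∈ X) (hw : w ∈ X) : Commute (pi A v) (pi A w) :=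
  funext fun c => (h.phi_cent c c.2 v hv _ (h.phi_mem c c.2 w hw)).eq

theorem pi_A {a : G} (ha : a ∈ A) : pi A a = 1 := pi_eq_one_iff.2 fun _ hc => h.phi_A hc ha

/-- `b ↦ [x, [b, x]]` modulo `C(A)`. -/
def t : A →* (A → G) := MonoidHom.mk' (fun b => pi A ⁅x, ⁅(b : G), x⁆⁆) fun a b => by
  have ha := h.gam a a.2
  have hb := h.gam b b.2
  have hβ := h.phi_mem a a.2 _ hb
  have h1 : ∀ v ∈ X, ⁅x, v⁆ ∈ X := fun v hv => h.ZX (h.xX v hv)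
  rw [coe_mul, tw_mul_left, h.x_mul (mul_mem hβ hb) ha, h.x_mul hβ hb,
    h.pi_mul (mul_mem (h1 _ hβ) (h1 _ hb)) (h1 _ ha), h.pi_mul (h1 _ hβ) (h1 _ hb),
    pi_eq_one_iff.2 (h.xphi a a.2 _ hb), one_mul, (h.pi_comm (h1 _ hb) (h1 _ ha)).eq]

theorem t_apply (b : A) : h.t b = pi A ⁅x, ⁅(b : G), x⁆⁆ := rfl

theorem pi_phi_of_mem_range {v : G} (h1 : pi A v ∈ h.t.range) {a : G} (ha : a ∈ A) :
    pi A ⁅a, v⁆ = 1 := by
  obtain ⟨d, hd⟩ := h1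
  refine pi_eq_one_iff.2 fun c hc => ?_
  rw [← pi_eq_iff.1 hd a ha]
  exact h.phiZA a ha _ (h.theta_mem d.2) c hc

theorem pi_gam_mul {a b : G} (ha : a ∈ A) (hb : b ∈ A) (h1 : pi A ⁅b, x⁆ ∈ h.t.range) :
    pi A ⁅a * b, x⁆ = pi A ⁅a, x⁆ * pi A ⁅b, x⁆ := by
  have hga := h.gam a ha
  have hgb := h.gam b hb
  have hβ := h.phi_mem a ha _ hgb
  rw [tw_mul_left, h.pi_mul (mul_mem hβ hgb) hga, h.pi_mul hβ hgb,
    h.pi_phi_of_mem_range h1 ha, one_mul, (h.pi_comm hgb hga).eq]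

/-- The elements `b` with `[b, x]` congruent to some `[x, [d, x]]`. -/
def H : Subgroup A where
  carrier := {b | pi A ⁅(b : G), x⁆ ∈ h.t.range}
  one_mem' := by
    change pi A ⁅((1 : A) : G), x⁆ ∈ h.t.range
    rw [coe_one, commutatorElement_one_left, h.pi_A (one_mem A)]
    exact one_mem _
  mul_mem' := fun {a b} ha hb => by
    change pi A ⁅(a : G) * b, x⁆ ∈ h.t.range
    rw [h.pi_gam_mul a.2 b.2 hb]
    exact mul_mem ha hb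
  inv_mem' := fun {b} hb => by
    have h1 := h.pi_gam_mul (inv_mem b.2) b.2 hb
    rw [inv_mul_cancel, commutatorElement_one_left, h.pi_A (one_mem A), eq_comm,
      mul_eq_one_iff_eq_inv] at h1
    change pi A ⁅(b : G)⁻¹, x⁆ ∈ h.t.range
    rw [h1]
    exact inv_mem hb

/-- `b ↦ [b, x]` modulo `C(A)`. -/
def g : h.H →* (A → G) := MonoidHom.mk' (fun b => pi A ⁅((b : A) : G), x⁆) fun a b =>
  h.pi_gam_mul (a : A).2 (b : A).2 b.2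

/-- `a` corrects `[b, x]²`. -/
def Cor (A : Subgroup G) (x a b : G) : Prop :=
  a ∈ A ∧ b ∈ A ∧ pi A ⁅x, ⁅a, x⁆⁆ = 1 ∧ pi A ⁅a, x⁆ = pi A ⁅x, ⁅b, x⁆⁆

theorem kappa_eq_one {a b c : G} (hab : Cor A x a b) (hc : c ∈ A) : ⁅⁅a, x⁆, ⁅c, x⁆⁆ = 1 := by
  obtain ⟨ha, hb, h1, h2⟩ := hab
  have hz := h.theta_mem hb
  have hgc := h.gam c hc
  set k := ⁅x, ⁅b, x⁆⁆⁻¹ * ⁅a, x⁆ with hk
  have hkX : k ∈ X := mul_mem (inv_mem (h.ZX hz)) (h.gam a ha)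
  have hkA : k ∈ A := h.self k hkX (pi_eq_one_iff.1 (by
    rw [hk, h.pi_mul (inv_mem (h.ZX hz)) (h.gam a ha), h.pi_inv (h.ZX hz), h2, inv_mul_cancel]))
  have h3 : ⁅a, x⁆ = ⁅x, ⁅b, x⁆⁆ * k := by rw [hk, mul_inv_cancel_left]
  have h4 : ⁅k, x⁆ ∈ Z := by
    rw [← commutatorElement_inv]
    exact inv_mem (h.xX k hkX)
  have h5 : ⁅x, ⁅a, x⁆⁆ = ⁅k, x⁆⁻¹ := by
    rw [h3, h.x_mul (h.ZX hz) hkX, h.x_Z hz, one_mul, commutatorElement_inv]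
  have h6 : ⁅c, ⁅k, x⁆⁆ = 1 := by
    have h6 := pi_eq_one_iff.1 h1 c hc
    rwa [h5, h.phi_inv hc (h.ZX h4), inv_eq_one] at h6
  have h7 : ⁅k, ⁅c, x⁆⁆ = 1 := by
    rw [h.beta_comm hkA hc, h6, one_mul]
    exact commutatorElement_eq_one_iff_commute.2 (h.Zc _ h4 _ hgc)
  rw [h3]
  exact commutatorElement_eq_one_iff_commute.2
    ((h.Zc _ hz _ hgc).mul_left (commutatorElement_eq_one_iff_commute.1 h7))

theorem cor_theta {a b c : G} (hab : Cor A x a b) (hc : c ∈ A) : ⁅a, ⁅x, ⁅c, x⁆⁆⁆ = 1 := by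
  rw [h.kappa_sq hab.1 hc, h.kappa_eq_one hab hc, pi_eq_one_iff.1 hab.2.2.1 c hc, one_pow, one_mul]

theorem cor_gam {a b c : G} (hab : Cor A x a b) (hc : c ∈ A) :
    ⁅a, ⁅c, x⁆⁆ = ⁅c, ⁅x, ⁅b, x⁆⁆⁆ := by
  rw [h.beta_comm hab.1 hc, h.kappa_eq_one hab hc, mul_one, pi_eq_iff.1 hab.2.2.2 c hc]

theorem cor_beta {a b c d : G} (hab : Cor A x a b) (hc : c ∈ A) (hd : d ∈ A) :
    ⁅a, ⁅d, ⁅c, x⁆⁆⁆ = 1 := by
  rw [h.phi_comm hab.1 hd (h.gam c hc), h.cor_gam hab hc]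
  exact h.phiZA c hc _ (h.theta_mem hab.2.1) d hd

theorem cor_commute {a b c d : G} (hab : Cor A x a b) (hcd : Cor A x c d) :
    Commute (⁅b, x⁆ ^ 2 * a) (⁅d, x⁆ ^ 2 * c) := by
  have hb := hab.2.1
  have hd := hcd.2.1
  have hgb := h.gam b hb
  have hgd := h.gam d hd
  have key : ∀ {a b c d : G}, Cor A x a b → Cor A x c d →
      ⁅b, x⁆ ^ 2 * a * (⁅d, x⁆ ^ 2 * c) =
        ⁅d, ⁅x, ⁅b, x⁆⁆⁆ ^ 2 * (⁅b, x⁆ ^ 2 * ⁅d, x⁆ ^ 2) * (a * c) := by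
    intro a b c d hab hcd
    have hgd := h.gam d hcd.2.1
    have h1 := tw_conj a (⁅d, x⁆ ^ 2)
    rw [h.phi_pow hab.1 hgd, h.cor_gam hab hcd.2.1] at h1
    have h2 := ((h.phi_cent d hcd.2.1 _ (h.ZX (h.theta_mem hab.2.1)) _
      (h.gam b hab.2.1)).pow_pow 2 2).eq
    calc _ = ⁅b, x⁆ ^ 2 * (a * ⁅d, x⁆ ^ 2 * a⁻¹) * (a * c) := by group
      _ = _ := by rw [h1, ← mul_assoc (⁅b, x⁆ ^ 2), ← h2, mul_assoc (⁅d, ⁅x, ⁅b, x⁆⁆⁆ ^ 2)]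
  have hk := h.XX _ hgb _ hgd
  have h3 : ⁅b, x⁆ ^ 2 * ⁅d, x⁆ ^ 2 = (⁅⁅b, x⁆, ⁅d, x⁆⁆ ^ 2) ^ 2 * (⁅d, x⁆ ^ 2 * ⁅b, x⁆ ^ 2) := by
    set k := ⁅⁅b, x⁆, ⁅d, x⁆⁆ with hk'
    have e : ⁅b, x⁆ * ⁅d, x⁆ = k * (⁅d, x⁆ * ⁅b, x⁆) := by
      rw [hk', commutatorElement_def ⁅b, x⁆]; group
    have e2 := th_pow_mul_eq e (h.Zc k hk _ hgb) 2
    have c2 := ((h.Zc k hk _ hgd).pow_left 2).eq
    rw [pow_two ⁅d, x⁆, ← mul_assoc, e2, mul_assoc, mul_assoc, e2, ← mul_assoc ⁅d, x⁆, ← c2,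
      pow_two (k ^ 2)]
    simp only [mul_assoc]
  have h4 := ((h.Zc _ hk _ (h.phi_mem d hd _ (h.ZX (h.theta_mem hb)))).pow_left 2).symm
  rw [Commute, SemiconjBy, key hab hcd, key hcd hab, h.kappa_sq hb hd, h4.mul_pow, h3,
    (h.comm a hab.1 c hcd.1).eq, mul_assoc (⁅d, ⁅x, ⁅b, x⁆⁆⁆ ^ 2)]
  simp only [mul_assoc]

/-- The generators of the replacing subgroup. -/
def gens (A : Subgroup G) (x : G) : Set G :=
  {m | (∃ a b, Cor A x a b ∧ m = ⁅b, x⁆ ^ 2 * a) ∨ (∃ c ∈ A, m = ⁅x, ⁅c, x⁆⁆) ∨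
    ∃ c ∈ A, ∃ d ∈ A, m = ⁅d, ⁅c, x⁆⁆}

theorem gens_comm : IsMulCommutative (closure (gens A x)) := by
  have k1 : ∀ {a b c : G}, Cor A x a b → c ∈ A → Commute (⁅b, x⁆ ^ 2 * a) ⁅x, ⁅c, x⁆⁆ :=
    fun hab hc => ((h.Zc _ (h.theta_mem hc) _ (h.gam _ hab.2.1)).symm.pow_left 2).mul_left
      (commutatorElement_eq_one_iff_commute.1 (h.cor_theta hab hc))
  have k2 : ∀ {a b c d : G}, Cor A x a b → c ∈ A → d ∈ A →
      Commute (⁅b, x⁆ ^ 2 * a) ⁅d, ⁅c, x⁆⁆ := fun hab hc hd =>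
    ((h.phi_cent _ hd _ (h.gam _ hc) _ (h.gam _ hab.2.1)).symm.pow_left 2).mul_left
      (commutatorElement_eq_one_iff_commute.1 (h.cor_beta hab hc hd))
  have k3 : ∀ {c d e : G}, c ∈ A → d ∈ A → e ∈ A → Commute ⁅d, ⁅c, x⁆⁆ ⁅x, ⁅e, x⁆⁆ :=
    fun hc hd he => h.phi_cent _ hd _ (h.gam _ hc) _ (h.ZX (h.theta_mem he))
  refine isMulCommutative_closure ?_
  rintro _ (⟨a, b, hab, rfl⟩ | ⟨c, hc, rfl⟩ | ⟨c, hc, d, hd, rfl⟩) _
    (⟨a', b', hab', rfl⟩ | ⟨c', hc', rfl⟩ | ⟨c', hc', d', hd', rfl⟩)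
  · exact h.cor_commute hab hab'
  · exact k1 hab hc'
  · exact k2 hab hc' hd'
  · exact (k1 hab' hc).symm
  · exact h.Zc _ (h.theta_mem hc) _ (h.ZX (h.theta_mem hc'))
  · exact (k3 hc' hd' hc).symm
  · exact (k2 hab' hc hd).symm
  · exact k3 hc hd hc'
  · exact h.phi_cent _ hd _ (h.gam _ hc) _ (h.phi_mem _ hd' _ (h.gam _ hc'))

theorem gens_le : closure (gens A x) ≤ A ⊔ X := by
  refine (closure_le _).2 ?_
  rintro _ (⟨a, b, hab, rfl⟩ | ⟨c, hc, rfl⟩ | ⟨c, hc, d, hd, rfl⟩)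
  · exact mul_mem (mem_sup_right (pow_mem (h.gam b hab.2.1) 2)) (mem_sup_left hab.1)
  · exact mem_sup_right (h.ZX (h.theta_mem hc))
  · exact mem_sup_right (h.phi_mem d hd _ (h.gam c hc))

theorem mem_closure_gens {a b : G} (hab : Cor A x a b) (hb : pi A ⁅b, x⁆ ∈ h.t.range) :
    a ∈ closure (gens A x) := by
  obtain ⟨e, he⟩ := hb
  have hz := h.theta_mem e.2
  have hgb := h.gam b hab.2.1
  set k := ⁅x, ⁅(e : G), x⁆⁆⁻¹ * ⁅b, x⁆ with hk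
  have hkX : k ∈ X := mul_mem (inv_mem (h.ZX hz)) hgb
  have hkA : k ∈ A := h.self k hkX (pi_eq_one_iff.1 (by
    rw [hk, h.pi_mul (inv_mem (h.ZX hz)) hgb, h.pi_inv (h.ZX hz), ← he, t_apply, inv_mul_cancel]))
  have h3 : ⁅b, x⁆ = ⁅x, ⁅(e : G), x⁆⁆ * k := by rw [hk, mul_inv_cancel_left]
  have h4 : ⁅k⁻¹, x⁆ = ⁅x, ⁅b, x⁆⁆ := by
    rw [h3, h.x_mul (h.ZX hz) hkX, h.x_Z hz, one_mul]
    calc ⁅k⁻¹, x⁆ = k⁻¹ * (⁅x, k⁆ * k) := by simp only [commutatorElement_def]; group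
      _ = _ := by rw [(h.Zc _ (h.xX k hkX) k hkX).eq, inv_mul_cancel_left]
  have h5 : Cor A x k⁻¹ b := ⟨inv_mem hkA, hab.2.1, by
    rw [h4, h.x_Z (h.theta_mem hab.2.1), h.pi_A (one_mem A)], by rw [h4]⟩
  have h6 : ⁅x, ⁅(e : G), x⁆⁆ ∈ closure (gens A x) := subset_closure (Or.inr (Or.inl ⟨e, e.2, rfl⟩))
  have h7 : ⁅b, x⁆ ^ 2 * k⁻¹ ∈ closure (gens A x) := subset_closure (Or.inl ⟨_, _, h5, rfl⟩)
  have h8 : ⁅b, x⁆ ∈ closure (gens A x) := by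
    rw [pow_two, mul_assoc, mul_inv_eq_of_eq_mul h3] at h7
    exact (mul_mem_cancel_right h6).1 h7
  exact (mul_mem_cancel_left (pow_mem h8 2)).1 (subset_closure (Or.inl ⟨_, _, hab, rfl⟩))

theorem mem_H_of_sq {b c : A} (h1 : pi A ⁅(c : G), x⁆ ^ 2 * (pi A ⁅(b : G), x⁆ ^ 2)⁻¹ ∈ h.t.range) :
    b⁻¹ * c ∈ h.H := by
  have hb := h.gam b b.2
  have hc := h.gam c c.2
  have hw := mul_mem hc (inv_mem hb)
  obtain ⟨n, hn⟩ := h.odd _ hw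
  have h2 : pi A (⁅(c : G), x⁆ * ⁅(b : G), x⁆⁻¹) ∈ h.t.range := by
    rw [← hn, h.pi_pow (pow_mem hw 2), h.pi_pow hw, h.pi_mul hc (inv_mem hb),
      (h.pi_comm hc (inv_mem hb)).mul_pow, h.pi_inv hb, inv_pow]
    exact pow_mem h1 n
  have h3 : ⁅(b : G)⁻¹ * c, x⁆ = ⁅(b : G)⁻¹, ⁅(c : G), x⁆ * ⁅(b : G), x⁆⁻¹⁆ *
      (⁅(c : G), x⁆ * ⁅(b : G), x⁆⁻¹) := by
    simp only [commutatorElement_def]; group
  change pi A ⁅(b : G)⁻¹ * c, x⁆ ∈ h.t.range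
  rwa [h3, h.pi_mul (h.phi_mem _ (inv_mem b.2) _ hw) hw,
    h.pi_phi_of_mem_range h2 (inv_mem b.2), one_mul]

/-- The twisted replacement lemma. -/
theorem twisted [Finite G]
    (hmax : ∀ B : Subgroup G, B ≤ A ⊔ X → IsMulCommutative B → Nat.card B ≤ Nat.card A)
    {c d : G} (hc : c ∈ A) (hd : d ∈ A) :
    ∃ b ∈ A, ∃ z ∈ Z, ∃ k ∈ A, ⁅d, ⁅c, x⁆⁆ = z * ⁅b, x⁆ ^ 2 * k := by
  set B := closure (gens A x) with hB
  have hcount := tw_count h.t h.H h.g (by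
    rintro _ ⟨b, rfl⟩
    exact b.2)
  set A₂ := ((h.t.ker.subgroupOf h.H).map h.g).comap h.t with hA₂
  set C := h.t.ker.subgroupOf h.H ⊓ (h.H.map h.t).comap h.g with hC
  have hs : ∀ b : A₂, ∃ a : G, Cor A x a (b : A) := fun b => by
    obtain ⟨a, h1, h2⟩ := b.2
    exact ⟨(a : A), (a : A).2, (b : A).2, h1, h2⟩
  choose s hs using hs
  have hρ : ∀ r : h.t.range, ∃ e : A, h.t e = r := fun r => r.2
  choose ρ hρ using hρ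
  let F : (A₂ ⧸ h.H.subgroupOf A₂) × h.t.range → B ⧸ A.subgroupOf B := fun q =>
    QuotientGroup.mk ⟨⁅x, ⁅(ρ q.2 : G), x⁆⁆ * (⁅((q.1.out : A) : G), x⁆ ^ 2 * s q.1.out),
      mul_mem (subset_closure (Or.inr (Or.inl ⟨_, (ρ q.2).2, rfl⟩)))
        (subset_closure (Or.inl ⟨_, _, hs _, rfl⟩))⟩
  have hF : Function.Injective F := by
    rintro ⟨q, r⟩ ⟨q', r'⟩ hq
    have h1 := mem_subgroupOf.1 (QuotientGroup.eq.1 hq)
    have hz := h.ZX (h.theta_mem (ρ r).2)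
    have hz' := h.ZX (h.theta_mem (ρ r').2)
    have hb := h.gam _ (q.out : A).2
    have hb' := h.gam _ (q'.out : A).2
    have h2 := h.pi_A (mul_mem (mul_mem (hs q.out).1 h1) (inv_mem (hs q'.out).1))
    simp only [coe_mul, coe_inv, mul_inv_rev, ← mul_assoc, mul_inv_cancel, one_mul,
      mul_inv_cancel_right] at h2
    rw [h.pi_mul (mul_mem (mul_mem (inv_mem (pow_mem hb 2)) (inv_mem hz)) hz') (pow_mem hb' 2),
      h.pi_mul (mul_mem (inv_mem (pow_mem hb 2)) (inv_mem hz)) hz',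
      h.pi_mul (inv_mem (pow_mem hb 2)) (inv_mem hz), h.pi_inv (pow_mem hb 2), h.pi_inv hz,
      h.pi_pow hb, h.pi_pow hb', ← t_apply h, ← t_apply h, hρ, hρ] at h2
    have h3 : pi A ⁅((q'.out : A) : G), x⁆ ^ 2 * (pi A ⁅((q.out : A) : G), x⁆ ^ 2)⁻¹ =
        (r' : A → G)⁻¹ * r := by
      rw [mul_eq_one_iff_eq_inv'] at h2
      rw [h2]
      group
    have h4 : q = q' := by
      rw [← q.out_eq', ← q'.out_eq', QuotientGroup.eq, mem_subgroupOf]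
      exact h.mem_H_of_sq (h3 ▸ mul_mem (inv_mem r'.2) r.2)
    subst h4
    rw [mul_inv_cancel, eq_comm, inv_mul_eq_one] at h3
    rw [Subtype.ext h3]
  have hCle : Nat.card C ≤ Nat.card (A.subgroupOf B) := by
    refine Nat.card_le_card_of_injective (fun a => ⟨⟨((a : h.H) : A), ?_⟩, ((a : h.H) : A).2⟩)
      fun a b hab => Subtype.ext (Subtype.ext (Subtype.ext
        (congrArg (fun y : A.subgroupOf B => ((y : B) : G)) hab)))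
    obtain ⟨h1, b, h2, h3⟩ := a.2
    exact h.mem_closure_gens (b := b) ⟨((a : h.H) : A).2, b.2, h1, h3.symm⟩ h2
  have hcard : Nat.card (B ⧸ A.subgroupOf B) ≤
      Nat.card ((A₂ ⧸ h.H.subgroupOf A₂) × h.t.range) := by
    have h1 := hmax B h.gens_le h.gens_comm
    have h2 : Nat.card (h.H.subgroupOf A₂) = Nat.card ↥(A₂ ⊓ h.H) := by
      rw [← inf_subgroupOf_left]
      exact Nat.card_congr (subgroupOfEquivOfLe inf_le_left).toEquiv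
    rw [card_eq_card_quotient_mul_card_subgroup (h.H.subgroupOf A₂), h2] at hcount
    rw [card_eq_card_quotient_mul_card_subgroup (A.subgroupOf B)] at h1
    have h3 : Nat.card (A₂ ⧸ h.H.subgroupOf A₂) * Nat.card h.t.range * Nat.card C = Nat.card A :=
      Nat.eq_of_mul_eq_mul_right (Nat.card_pos (α := ↥(A₂ ⊓ h.H))) (by rw [← hcount]; ring)
    rw [Nat.card_prod]
    refine Nat.le_of_mul_le_mul_right ?_ (Nat.card_pos (α := C))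
    rw [h3]
    exact (Nat.mul_le_mul_left _ hCle).trans h1
  obtain ⟨⟨q, r⟩, hq⟩ := (hF.bijective_of_nat_card_le hcard).2
    (QuotientGroup.mk ⟨⁅d, ⁅c, x⁆⁆, subset_closure (Or.inr (Or.inr ⟨c, hc, d, hd, rfl⟩))⟩)
  have h1 := mem_subgroupOf.1 (QuotientGroup.eq.1 hq)
  refine ⟨_, (q.out : A).2, _, h.theta_mem (ρ r).2, _, mul_mem (hs q.out).1 h1, ?_⟩
  simp only [coe_mul, coe_inv]
  group

/-- `ψ` is a product of at least one map `v ↦ [a, v]`, and `y` is the image of `x`. -/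
structure Good (A X Z : Subgroup G) (x : G) (ψ : G → G) (y : G) : Prop where
  mem : y ∈ X
  maps : ∀ v ∈ X, ψ v ∈ X
  mul : ∀ v ∈ X, ∀ w ∈ X, ψ (v * w) = ψ v * ψ w
  phi : ∀ a ∈ A, ∀ v ∈ X, ψ ⁅a, v⁆ = ⁅a, ψ v⁆
  onZ : ∀ z ∈ Z, pi A (ψ z) = 1
  onA : ∀ k ∈ A, ψ k = 1
  gam : ∀ b ∈ A, pi A (ψ ⁅b, x⁆) = pi A ⁅b, y⁆

theorem good_base {e : G} (he : e ∈ A) : Good A X Z x (fun v => ⁅e, v⁆) ⁅e, x⁆ where
  mem := h.gam e he
  maps := h.phi_mem e he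
  mul := fun _ hv _ hw => h.phi_mul he hv hw
  phi := fun _ ha _ hv => h.phi_comm he ha hv
  onZ := fun z hz => pi_eq_one_iff.2 (h.phiZA e he z hz)
  onA := fun _ hk => h.phi_A he hk
  gam := fun b hb => by
    rw [h.beta_comm he hb, h.pi_mul (h.phi_mem b hb _ (h.gam e he))
      (h.ZX (h.XX _ (h.gam e he) _ (h.gam b hb))),
      pi_eq_one_iff.2 (h.XXA _ (h.gam e he) _ (h.gam b hb)), mul_one]

theorem good_step {ψ : G → G} {y e : G} (hy : Good A X Z x ψ y) (he : e ∈ A) :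
    Good A X Z x (fun v => ⁅e, ψ v⁆) ⁅e, y⁆ where
  mem := h.phi_mem e he y hy.mem
  maps := fun v hv => h.phi_mem e he _ (hy.maps v hv)
  mul := fun v hv w hw => by rw [hy.mul v hv w hw, h.phi_mul he (hy.maps v hv) (hy.maps w hw)]
  phi := fun a ha v hv => by rw [hy.phi a ha v hv, h.phi_comm he ha (hy.maps v hv)]
  onZ := fun z hz => by rw [pi_eq_one_iff.1 (hy.onZ z hz) e he, h.pi_A (one_mem A)]
  onA := fun k hk => by rw [hy.onA k hk, commutatorElement_one_right]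
  gam := fun b hb => by rw [pi_eq_iff.1 (hy.gam b hb) e he, h.phi_comm he hb hy.mem]

omit h in
/-- All commutators `[a₁, …, aₙ, v]` with `aᵢ ∈ A` are trivial. -/
def Nil (A : Subgroup G) : ℕ → G → Prop
  | 0, v => v = 1
  | n + 1, v => ∀ a ∈ A, Nil A n ⁅a, v⁆

omit h in
theorem exists_nil {S : Subgroup G} [Group.IsNilpotent S] (hA : A ≤ S) :
    ∃ n, ∀ v ∈ S, Nil A n v := by
  obtain ⟨n, hn⟩ := Group.IsNilpotent.nilpotent S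
  have key : ∀ m, ∀ v : S, v ∈ Subgroup.upperCentralSeries S m → Nil A m v := by
    intro m
    induction m with
    | zero => exact fun v hv => congrArg Subtype.val (mem_bot.1 hv)
    | succ m ih =>
      intro v hv a ha
      have h1 := inv_mem (Subgroup.mem_upperCentralSeries_succ_iff.1 hv ⟨a, hA ha⟩)
      rw [commutatorElement_inv] at h1
      exact ih _ h1
  exact ⟨n, fun v hv => key n ⟨v, hv⟩ (hn ▸ mem_top _)⟩

theorem exists_good {n : ℕ} : ∀ {ψ : G → G} {y : G}, Good A X Z x ψ y → Nil A n y → ¬ Nil A 2 y →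
    ∃ ψ y, Good A X Z x ψ y ∧ ¬ Nil A 2 y ∧ Nil A 3 y := by
  induction n with
  | zero =>
    rintro ψ y - rfl h1
    exact absurd (fun a _ b _ => by simp [Nil]) h1
  | succ n ih =>
    intro ψ y hy h1 h2
    by_cases h3 : Nil A 3 y
    · exact ⟨ψ, y, hy, h2, h3⟩
    · obtain ⟨e, he, h4⟩ : ∃ e ∈ A, ¬ Nil A 2 ⁅e, y⁆ := by
        by_contra h4
        exact h3 fun e he => by_contra fun h5 => h4 ⟨e, he, h5⟩
      exact ih (h.good_step hy he) (h1 e he) h4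

/-- If `C_A([A, y]) ≤ T` whenever `[A, A, y] ≠ 1`, the element `b` may be taken in `T`. -/
theorem deep [Finite G]
    (hmax : ∀ B : Subgroup G, B ≤ A ⊔ X → IsMulCommutative B → Nat.card B ≤ Nat.card A)
    (hnil : ∃ n, ∀ v ∈ X, Nil A n v) {T : Subgroup G}
    (hH : ∀ y ∈ X, ¬ Nil A 2 y → ∀ b ∈ A, (∀ a ∈ A, ⁅b, ⁅a, y⁆⁆ = 1) → b ∈ T)
    {c d : G} (hc : c ∈ A) (hd : d ∈ A) :
    ∃ b ∈ A ⊓ T, ∃ z ∈ Z, ∃ k ∈ A, ⁅d, ⁅c, x⁆⁆ = z * ⁅b, x⁆ ^ 2 * k := by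
  have hβ := h.phi_mem d hd _ (h.gam c hc)
  by_cases h1 : Nil A 2 ⁅c, x⁆
  · exact ⟨1, one_mem _, 1, one_mem _, _, h.self _ hβ (h1 d hd), by simp⟩
  obtain ⟨n, hn⟩ := hnil
  obtain ⟨ψ, y, hy, h2, h3⟩ := h.exists_good (h.good_base hc) (hn _ (h.gam c hc)) h1
  obtain ⟨b, hb, z, hz, k, hk, h4⟩ := h.twisted hmax hc hd
  refine ⟨b, ⟨hb, hH y hy.mem h2 b hb fun a ha => ?_⟩, z, hz, k, hk, h4⟩
  have hgb := h.gam b hb
  have hzX := h.ZX hz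
  have hkX : k ∈ X := (mul_mem_cancel_left (mul_mem hzX (pow_mem hgb 2))).1 (h4 ▸ hβ)
  have h5 : pi A (ψ _) = pi A (ψ _) := congrArg (fun v => pi A (ψ v)) h4
  have hby := h.phi_mem b hb y hy.mem
  rw [hy.phi d hd _ (h.gam c hc), pi_eq_iff.1 (hy.gam c hc) d hd,
    pi_eq_one_iff.2 (h3 c hc d hd), hy.mul _ (mul_mem hzX (pow_mem hgb 2)) _ hkX, hy.onA k hk,
    mul_one, hy.mul _ hzX _ (pow_mem hgb 2), pow_two, hy.mul _ hgb _ hgb,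
    h.pi_mul (hy.maps z hzX) (mul_mem (hy.maps _ hgb) (hy.maps _ hgb)), hy.onZ z hz, one_mul,
    h.pi_mul (hy.maps _ hgb) (hy.maps _ hgb), hy.gam b hb, ← pow_two, ← h.pi_pow hby] at h5
  obtain ⟨m, hm⟩ := h.odd _ hby
  rw [h.phi_comm hb ha hy.mem, ← hm, h.phi_pow ha (pow_mem hby 2), pi_eq_one_iff.1 h5.symm a ha,
    one_pow]

end Tw

end Cfsg.Agent.GT
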