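import Mathlib
import Cfsg.Agent.GT.ThompsonTwist
import Cfsg.Agent.GT.ThompsonDStar
import Cfsg.Agent.GT.ThompsonWeak
import Cfsg.Agent.Loc.CFGlaub

/-!
# Degree of nilpotency on chief factors when `J(S)` is not normal

For odd `p`, if the abelian Thompson subgroup `J(S)` is not normal in `G`, some
`g ∈ S - O_p(G)` acts with degree at most six on every chief factor inside `O_p(G)`.
-/

set_option autoImplicit false

namespace Cfsg.Agent.GT

open Subgroup Cfsg.Agent.Loc.CF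
open scoped commutatorElement

variable {G : Type*} [Group G]

section Ser

/-- The upper `P`-central series of `Q` above `K`. -/
def upSer (Q K P : Subgroup G) : ℕ → Subgroup G
  | 0 => K
  | n + 1 => Q ⊓ cmod P (upSer Q K P n)

variable {Q K P : Subgroup G} (hKQ : K ≤ Q) (hQ : ⁅Q, Q⁆ ≤ K) [K.Normal]
include hKQ

omit [K.Normal] in
theorem upSer_le (n : ℕ) : upSer Q K P n ≤ Q := by
  cases n with
  | zero => exact hKQ
  | succ n => exact inf_le_left

include hQ

theorem le_upSer (n : ℕ) : K ≤ upSer Q K P n := by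
  induction n with
  | zero => exact le_rfl
  | succ n ih =>
    exact le_inf hKQ (le_cmod.2 ⟨le_normalizer_iff_commutator_le_right.2
      (((commutator_mono hKQ (upSer_le hKQ n)).trans hQ).trans ih),
      (commutator_le_left _ _).trans ih⟩)

theorem mem_upSer_succ {n : ℕ} {v : G} :
    v ∈ upSer Q K P (n + 1) ↔ v ∈ Q ∧ ∀ a ∈ P, ⁅a, v⁆ ∈ upSer Q K P n := by
  refine and_congr_right fun hv => mem_cmod.trans ⟨fun h a ha => ?_, fun h => ⟨?_, fun a ha => ?_⟩⟩
  · rw [← commutatorElement_inv]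
    exact inv_mem (h.2 a ha)
  · exact le_normalizer_iff_commutator_le_right.2
      (((commutator_mono le_rfl (upSer_le hKQ n)).trans hQ).trans (le_upSer hKQ hQ n)) hv
  · rw [← commutatorElement_inv]
    exact inv_mem (h a ha)

omit hKQ hQ [K.Normal] in
theorem iter_le_of_upSer {n : ℕ} : ∀ {X : Subgroup G}, X ≤ upSer Q K P n →
    iterCommutator X P n ≤ K := by
  have key : ∀ i m, ∀ X : Subgroup G, X ≤ upSer Q K P (m + i) →
      iterCommutator X P i ≤ upSer Q K P m := by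
    intro i
    induction i with
    | zero => exact fun _ _ h => h
    | succ i ih =>
      intro m X h
      rw [show m + (i + 1) = m + 1 + i by ring] at h
      exact (commutator_mono ((ih _ _ h).trans inf_le_right) le_rfl).trans (commutator_cmod_le _ _)
  intro X h
  exact key n 0 X (by rwa [zero_add])

theorem upSer_sup {T : Subgroup G} [T.Normal] (hT : ⁅T, Q⁆ ≤ K) (n : ℕ) :
    upSer Q K P n ≤ upSer Q K (P ⊔ T) n := by
  induction n with
  | zero => exact le_rfl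
  | succ n ih =>
    intro v hv
    obtain ⟨h1, h2⟩ := (mem_upSer_succ hKQ hQ).1 hv
    refine (mem_upSer_succ hKQ hQ).2 ⟨h1, fun g hg => ?_⟩
    obtain ⟨a, ha, t, ht, rfl⟩ := mem_sup_of_normal_right.1 hg
    have h3 : ⁅t, v⁆ ∈ K := hT (commutator_mem_commutator ht h1)
    rw [tw_mul_left, ← tw_conj]
    exact mul_mem (le_upSer hKQ hQ n (Normal.conj_mem inferInstance _ h3 a)) (ih (h2 a ha))

theorem mem_upSer_of_nil [Q.Normal] {n : ℕ} : ∀ {v : G}, v ∈ Q → Tw.Nil P n v →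
    v ∈ upSer Q K P n := by
  induction n with
  | zero =>
    rintro v - rfl
    exact one_mem _
  | succ n ih =>
    intro v hv h
    exact (mem_upSer_succ hKQ hQ).2 ⟨hv, fun a ha => ih
      (commutator_le_right ⊤ Q (commutator_mem_commutator (mem_top a) hv)) (h a ha)⟩

theorem upSer_le_succ (n : ℕ) : upSer Q K P n ≤ upSer Q K P (n + 1) := by
  induction n with
  | zero => exact le_upSer hKQ hQ 1
  | succ n ih =>
    intro v hv
    obtain ⟨h1, h2⟩ := (mem_upSer_succ hKQ hQ).1 hv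
    exact (mem_upSer_succ hKQ hQ).2 ⟨h1, fun a ha => ih (h2 a ha)⟩

theorem upSer_le_of_succ_le {k : ℕ} (h : upSer Q K P (k + 1) ≤ upSer Q K P k) (n : ℕ) :
    upSer Q K P n ≤ upSer Q K P k := by
  have key : ∀ n, upSer Q K P (k + n) ≤ upSer Q K P k := by
    intro n
    induction n with
    | zero => exact le_rfl
    | succ n ih =>
      intro v hv
      obtain ⟨h1, h2⟩ := (mem_upSer_succ hKQ hQ (n := k + n)).1 hv
      exact h ((mem_upSer_succ hKQ hQ).2 ⟨h1, fun a ha => ih (h2 a ha)⟩)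
  exact (monotone_nat_of_le_succ (upSer_le_succ hKQ hQ) (Nat.le_add_left n k)).trans (key n)

end Ser

section Levels

/-- The commutator `[a₁, …, aₙ, u]`. -/
def wd {P : Subgroup G} (u : G) : List P → G
  | [] => u
  | a :: l => ⁅(a : G), wd u l⁆

/-- `P` acts on a normal subgroup `Q` of class two. -/
structure Lev (Q T P : Subgroup G) (u : G) : Prop where
  QT : Q ≤ T
  TQ : ⁅T, Q⁆ ≤ zc Q
  PP : ⁅P, P⁆ ≤ T
  quad : ∀ z ∈ ⁅Q, Q⁆, ∀ a ∈ P, ⁅a, z⁆ ∈ centralizer (P : Set G)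
  odd : ∀ v ∈ Q, ∃ n : ℕ, (v ^ 2) ^ n = v
  five : u ∈ upSer Q (zc Q) P 5

namespace Lev

variable {Q T P : Subgroup G} {u : G} [Q.Normal] (h : Lev Q T P u)
include h

omit [Q.Normal] in
theorem QQ : ⁅Q, Q⁆ ≤ zc Q := (commutator_mono h.QT le_rfl).trans h.TQ

omit h in
theorem phi_mem (a : G) {v : G} (hv : v ∈ Q) : ⁅a, v⁆ ∈ Q :=
  commutator_le_right ⊤ Q (commutator_mem_commutator (mem_top a) hv)

omit [Q.Normal] in
theorem c_comm {v w y : G} (hv : v ∈ Q) (hw : w ∈ Q) (hy : y ∈ Q) : Commute y ⁅v, w⁆ :=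
  (h.QQ (commutator_mem_commutator hv hw)).2 y hy

omit [Q.Normal] in
theorem c_mul_right {v w y : G} (hv : v ∈ Q) (hw : w ∈ Q) (hy : y ∈ Q) :
    ⁅v, w * y⁆ = ⁅v, w⁆ * ⁅v, y⁆ := by
  rw [tw_mul_right, (h.c_comm hv hy hw).eq, mul_inv_cancel_right]

omit [Q.Normal] in
theorem c_mul_left {v w y : G} (hv : v ∈ Q) (hw : w ∈ Q) (hy : y ∈ Q) :
    ⁅v * w, y⁆ = ⁅w, y⁆ * ⁅v, y⁆ := by
  rw [tw_mul_left, commutatorElement_eq_one_iff_commute.2 (h.c_comm hw hy hv), one_mul]

theorem phi_c (a : G) {v y : G} (hv : v ∈ Q) (hy : y ∈ Q) :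
    ⁅v, ⁅a, y⁆⁆ * ⁅⁅a, v⁆, y⁆ = ⁅a, ⁅v, y⁆⁆ * ⁅⁅a, v⁆, ⁅a, y⁆⁆⁻¹ := by
  have h1 : a * ⁅v, y⁆ * a⁻¹ = ⁅⁅a, v⁆ * v, ⁅a, y⁆ * y⁆ := by
    rw [← tw_conj, ← tw_conj]
    simp only [commutatorElement_def]; group
  have hv' := phi_mem a hv
  have hy' := phi_mem a hy
  rw [h.c_mul_left hv' hv (mul_mem hy' hy), h.c_mul_right hv hy' hy, h.c_mul_right hv' hy' hy,
    tw_conj, mul_assoc, ← (h.c_comm hv hy (mul_mem (phi_mem _ hy') (phi_mem _ hy))).eq,
    ← mul_assoc] at h1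
  rw [mul_right_cancel h1, ← (h.c_comm hv' hy' (phi_mem _ hy)).eq, ← mul_assoc,
    mul_inv_cancel_right]

theorem wd_mem_upSer (l : List P) : wd u l ∈ upSer Q (zc Q) P (5 - l.length) := by
  induction l with
  | nil => exact h.five
  | cons a l ih =>
    rcases Nat.lt_or_ge l.length 5 with h1 | h1
    · rw [show 5 - l.length = 5 - (a :: l).length + 1 by simp only [List.length_cons]; omega] at ih
      exact ((mem_upSer_succ inf_le_left h.QQ).1 ih).2 a a.2
    · rw [show 5 - l.length = 0 by omega] at ih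
      rw [show 5 - (a :: l).length = 0 by simp only [List.length_cons]; omega]
      exact commutator_le_right ⊤ (zc Q) (commutator_mem_commutator (mem_top _) ih)

theorem wd_mem (l : List P) : wd u l ∈ Q := upSer_le inf_le_left _ (h.wd_mem_upSer l)

theorem wd_mem_zc {l : List P} (hl : 5 ≤ l.length) : wd u l ∈ zc Q := by
  have := h.wd_mem_upSer l
  rwa [show 5 - l.length = 0 by omega] at this

theorem wd_perm {l l' : List P} (hl : l.Perm l') :
    QuotientGroup.mk' (zc Q) (wd u l) = QuotientGroup.mk' (zc Q) (wd u l') := by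
  set f := QuotientGroup.mk' (zc Q) with hf
  have h0 : ∀ t ∈ T, ∀ v ∈ Q, ⁅f t, f v⁆ = 1 := fun t ht v hv => by
    rw [← map_commutatorElement]
    exact (QuotientGroup.eq_one_iff _).2 (h.TQ (commutator_mem_commutator ht hv))
  induction hl with
  | nil => rfl
  | cons a _ ih => simp only [wd, map_commutatorElement, ih]
  | swap a b l =>
    have hv := h.wd_mem l
    set v := wd u l
    have h1 : f b * f a = f ⁅(b : G), a⁆ * (f a * f b) := by
      rw [map_commutatorElement, commutatorElement_def]; group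
    have ht := h.PP (commutator_mem_commutator b.2 a.2)
    have h2 := tw_mul_left (f b) (f a) (f v)
    rw [h1, tw_mul_left, h0 _ ht v hv, mul_one, ← map_mul, ← map_commutatorElement f (a * b : G),
      h0 _ ht _ (phi_mem _ hv), one_mul, map_commutatorElement, map_mul, tw_mul_left, mul_assoc,
      mul_assoc] at h2
    have h3 := commutatorElement_eq_one_iff_commute.1
      (h0 _ (h.QT (phi_mem (a : G) hv)) _ (phi_mem (b : G) hv))
    rw [map_commutatorElement, map_commutatorElement] at h3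
    rw [h3.eq] at h2
    simp only [wd, map_commutatorElement]
    exact (mul_right_cancel h2).symm
  | trans _ _ ih1 ih2 => exact ih1.trans ih2

theorem c_perm {l l' : List P} (hl : l.Perm l') {y : G} (hy : y ∈ Q) :
    ⁅y, wd u l⁆ = ⁅y, wd u l'⁆ := by
  have h1 := QuotientGroup.eq.1 (h.wd_perm hl)
  rw [← mul_inv_cancel_left (wd u l) (wd u l'), h.c_mul_right hy (h.wd_mem l) h1.1,
    commutatorElement_eq_one_iff_commute.2 (h1.2 y hy), mul_one]

theorem c_eq_one {I J : List P} (hJ : 5 ≤ J.length) : ⁅wd u I, wd u J⁆ = 1 :=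
  commutatorElement_eq_one_iff_commute.2 ((h.wd_mem_zc hJ).2 _ (h.wd_mem I))

theorem step {K : Subgroup G} {s : ℕ}
    (h1 : ∀ I J : List P, I.length + J.length = s + 1 → ⁅wd u I, wd u J⁆ ∈ K)
    (h2 : ∀ a ∈ P, ∀ I J : List P, I.length + J.length + 1 = s → ⁅a, ⁅wd u I, wd u J⁆⁆ ∈ K)
    (a : P) (I J : List P) (hs : I.length + J.length + 1 = s) :
    ⁅wd u I, wd u (a :: J)⁆ * ⁅wd u (a :: I), wd u J⁆ ∈ K := by
  simp only [wd]
  rw [h.phi_c a (h.wd_mem I) (h.wd_mem J)]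
  exact mul_mem (h2 a a.2 I J hs) (inv_mem (h1 (a :: I) (a :: J) (by
    simp only [List.length_cons]; omega)))

theorem shift {K : Subgroup G} {s : ℕ}
    (h1 : ∀ I J : List P, I.length + J.length = s + 1 → ⁅wd u I, wd u J⁆ ∈ K)
    (h2 : ∀ a ∈ P, ∀ I J : List P, I.length + J.length + 1 = s → ⁅a, ⁅wd u I, wd u J⁆⁆ ∈ K)
    (h3 : ∀ L : List P, L.length = s → ⁅u, wd u L⁆ ∈ K) (I : List P) :
    ∀ J : List P, I.length + J.length = s → ⁅wd u I, wd u J⁆ ∈ K := by
  induction I with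
  | nil => exact fun J hJ => h3 J (by simpa using hJ)
  | cons a I ih =>
    intro J hJ
    simp only [List.length_cons] at hJ
    exact (mul_mem_cancel_left (ih (a :: J) (by simp only [List.length_cons]; omega))).1
      (h.step h1 h2 a I J (by omega))

theorem desc {K : Subgroup G} {s : ℕ} (hs : 5 ≤ s)
    (h2 : ∀ a ∈ P, ∀ I J : List P, s ≤ I.length + J.length + 1 → ⁅a, ⁅wd u I, wd u J⁆⁆ ∈ K)
    (I J : List P) (hIJ : s ≤ I.length + J.length) : ⁅wd u I, wd u J⁆ ∈ K := by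
  have key : ∀ n, ∀ I J : List P, s ≤ I.length + J.length → 9 ≤ I.length + J.length + n →
      ⁅wd u I, wd u J⁆ ∈ K := by
    intro n
    induction n with
    | zero =>
      intro I J _ h4
      rcases Nat.lt_or_ge J.length 5 with h5 | h5
      · rw [← commutatorElement_inv, h.c_eq_one (by omega), inv_one]
        exact one_mem _
      · rw [h.c_eq_one h5]
        exact one_mem _
    | succ n ih =>
      intro I J h3 h4
      refine h.shift (s := I.length + J.length) (fun I' J' h5 => ih I' J' (by omega) (by omega))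
        (fun a ha I' J' h5 => h2 a ha I' J' (by omega)) (fun L hL => ?_) I J rfl
      rw [show ⁅u, wd u L⁆ = 1 from h.c_eq_one (I := []) (by omega)]
      exact one_mem _
  exact key 9 I J hIJ (by omega)

theorem c_quad (a : G) (ha : a ∈ P) (I J : List P) :
    ⁅a, ⁅wd u I, wd u J⁆⁆ ∈ centralizer (P : Set G) :=
  h.quad _ (commutator_mem_commutator (h.wd_mem I) (h.wd_mem J)) a ha

theorem c_four (I J : List P) (hIJ : 4 ≤ I.length + J.length) :
    ⁅wd u I, wd u J⁆ ∈ centralizer (P : Set G) := by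
  have h1 := h.desc (K := centralizer (P : Set G)) le_rfl fun a ha I J _ => h.c_quad a ha I J
  rcases hIJ.lt_or_eq with h2 | h2
  · exact h1 I J h2
  have h3 := fun I J (h3 : I.length + J.length = 4 + 1) => h1 I J h3.ge
  have h4 := fun a ha (I J : List P) (_ : I.length + J.length + 1 = 4) => h.c_quad a ha I J
  refine h.shift h3 h4 (fun L hL => ?_) I J h2.symm
  match L, hL with
  | [a, b, c, d], _ =>
    have e1 := h.step h3 h4 a [] [b, c, d] rfl
    have e2 := h.step h3 h4 b [a] [c, d] rfl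
    have e3 := h.step h3 h4 c [b, a] [d] rfl
    have e4 := h.step h3 h4 d [c, b, a] [] rfl
    rw [(h.c_comm (h.wd_mem _) (h.wd_mem _) (phi_mem _ (h.wd_mem _))).eq] at e2 e4
    have e5 := mul_mem (mul_mem (mul_mem e1 (inv_mem e2)) e3) (inv_mem e4)
    simp only [mul_inv_rev, mul_assoc, mul_inv_cancel_left, inv_mul_cancel_left] at e5
    rw [commutatorElement_inv, h.c_perm (l := [d, c, b, a]) (l' := [a, b, c, d]) (List.reverse_perm [a, b, c, d])
      (h.wd_mem _), ← pow_two] at e5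
    obtain ⟨n, hn⟩ := h.odd _ (phi_mem (wd u ([] : List P)) (h.wd_mem [a, b, c, d]))
    exact hn ▸ pow_mem e5 n

theorem c_five (I J : List P) (hIJ : 5 ≤ I.length + J.length) : ⁅wd u I, wd u J⁆ = 1 := by
  have h0 : ∀ a ∈ P, ∀ I J : List P, 5 ≤ I.length + J.length + 1 →
      ⁅a, ⁅wd u I, wd u J⁆⁆ ∈ (⊥ : Subgroup G) := fun a ha I J h0 =>
    mem_bot.2 (commutatorElement_eq_one_iff_commute.2 (h.c_four I J (by omega) a ha))
  exact mem_bot.1 (h.desc le_rfl h0 I J hIJ)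

/-- The subgroup generated by `Z(Q)` and the commutators of length at least `i`. -/
def lev (Q P : Subgroup G) (u : G) (i : ℕ) : Subgroup G :=
  closure ((zc Q : Set G) ∪ {v | ∃ l : List P, i ≤ l.length ∧ v = wd u l})

omit h [Q.Normal] in
theorem zc_le_lev (i : ℕ) : zc Q ≤ lev Q P u i := fun _ hv => subset_closure (Or.inl hv)

omit h [Q.Normal] in
theorem lev_anti {i j : ℕ} (hij : i ≤ j) : lev Q P u j ≤ lev Q P u i :=
  closure_mono (Set.union_subset_union_right _ fun _ ⟨l, h1, h2⟩ => ⟨l, hij.trans h1, h2⟩)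

theorem lev_le (i : ℕ) : lev Q P u i ≤ Q := by
  refine (closure_le _).2 ?_
  rintro _ (hv | ⟨l, -, rfl⟩)
  · exact hv.1
  · exact h.wd_mem l

theorem phi_lev {i : ℕ} {a v : G} (ha : a ∈ P) (hv : v ∈ lev Q P u i) :
    ⁅a, v⁆ ∈ lev Q P u (i + 1) := by
  have h1 : ∀ v ∈ Q, ∀ w ∈ lev Q P u (i + 1), v * w * v⁻¹ ∈ lev Q P u (i + 1) := fun v hv w hw => by
    rw [tw_conj]
    exact mul_mem (zc_le_lev _ (h.QQ (commutator_mem_commutator hv (h.lev_le _ hw)))) hw
  induction hv using closure_induction with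
  | mem v hv =>
    rcases hv with hv | ⟨l, h2, rfl⟩
    · exact zc_le_lev _ (commutator_le_right ⊤ (zc Q) (commutator_mem_commutator (mem_top _) hv))
    · exact subset_closure (Or.inr ⟨⟨a, ha⟩ :: l, by simpa using h2, rfl⟩)
  | one => simp
  | mul v w hv _ h2 h3 =>
    rw [tw_mul_right]
    exact mul_mem h2 (h1 v (h.lev_le _ hv) _ h3)
  | inv v hv h2 =>
    have := h1 _ (inv_mem (h.lev_le _ hv)) _ (inv_mem h2)
    refine (congrArg (· ∈ _) ?_).mp this
    simp only [commutatorElement_def]; group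

theorem c_lev_right {K : Subgroup G} {j : ℕ} {v w : G} (hv : v ∈ Q)
    (h1 : ∀ J : List P, j ≤ J.length → ⁅v, wd u J⁆ ∈ K) (hw : w ∈ lev Q P u j) : ⁅v, w⁆ ∈ K := by
  induction hw using closure_induction with
  | mem w hw =>
    rcases hw with hw | ⟨l, h2, rfl⟩
    · rw [commutatorElement_eq_one_iff_commute.2 (hw.2 v hv)]
      exact one_mem _
    · exact h1 l h2
  | one => simp
  | mul w y hw hy h2 h3 =>
    rw [h.c_mul_right hv (h.lev_le _ hw) (h.lev_le _ hy)]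
    exact mul_mem h2 h3
  | inv w hw h2 =>
    have h3 := h.c_mul_right hv (h.lev_le _ hw) (inv_mem (h.lev_le _ hw))
    rw [mul_inv_cancel, commutatorElement_one_right, eq_comm, mul_eq_one_iff_inv_eq] at h3
    exact h3 ▸ inv_mem h2

theorem c_lev {K : Subgroup G} {i j : ℕ} {v w : G}
    (h1 : ∀ I J : List P, i + j ≤ I.length + J.length → ⁅wd u I, wd u J⁆ ∈ K)
    (hv : v ∈ lev Q P u i) (hw : w ∈ lev Q P u j) : ⁅v, w⁆ ∈ K := by
  refine h.c_lev_right (h.lev_le _ hv) (fun J hJ => ?_) hw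
  rw [← commutatorElement_inv]
  exact inv_mem (h.c_lev_right (h.wd_mem J) (fun I hI => h1 J I (by omega)) hv)

theorem lev_commute {i j : ℕ} (hij : 5 ≤ i + j) {v w : G} (hv : v ∈ lev Q P u i)
    (hw : w ∈ lev Q P u j) : Commute v w :=
  commutatorElement_eq_one_iff_commute.1 (mem_bot.1
    (h.c_lev (fun I J h1 => mem_bot.2 (h.c_five I J (hij.trans h1))) hv hw))

theorem lev_four {i j : ℕ} (hij : 4 ≤ i + j) {v w c : G} (hv : v ∈ lev Q P u i)
    (hw : w ∈ lev Q P u j) (hc : c ∈ P) : ⁅c, ⁅v, w⁆⁆ = 1 :=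
  commutatorElement_eq_one_iff_commute.2
    (h.c_lev (fun I J h1 => h.c_four I J (hij.trans h1)) hv hw c hc)

theorem tw {A : Subgroup G} (hA : IsMulCommutative A) (hAP : A ≤ P)
    (hself : ∀ v ∈ Q, (∀ c ∈ A, ⁅c, v⁆ = 1) → v ∈ A) {e : G} (he : e ∈ P) :
    Tw A (lev Q P u 2) ⁅Q, Q⁆ ⁅e, u⁆ := by
  have hx : ⁅e, u⁆ ∈ lev Q P u 1 := subset_closure (Or.inr ⟨[⟨e, he⟩], le_rfl, rfl⟩)
  exact
    { comm := th_comm_iff.1 hA
      phi_mem := fun a ha v hv => lev_anti (by norm_num) (h.phi_lev (hAP ha) hv)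
      phi_cent := fun a ha v hv w hw => h.lev_commute (by norm_num) (h.phi_lev (hAP ha) hv) hw
      gam := fun a ha => h.phi_lev (hAP ha) hx
      ZX := h.QQ.trans (zc_le_lev 2)
      Zc := fun z hz w hw => ((h.QQ hz).2 w (h.lev_le _ hw)).symm
      Zx := fun z hz => ((h.QQ hz).2 _ (h.lev_le _ hx)).symm
      xX := fun v hv => commutator_mem_commutator (h.lev_le _ hx) (h.lev_le _ hv)
      XX := fun v hv w hw => commutator_mem_commutator (h.lev_le _ hv) (h.lev_le _ hw)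
      XXA := fun v hv w hw c hc => h.lev_four (by norm_num) hv hw (hAP hc)
      phiZA := fun a ha z hz c hc =>
        commutatorElement_eq_one_iff_commute.2 (h.quad z hz a (hAP ha) c (hAP hc))
      xphi := fun a ha v hv c hc => h.lev_four (by norm_num) hx (h.phi_lev (hAP ha) hv) (hAP hc)
      odd := fun v hv => h.odd v (h.lev_le _ hv)
      self := fun v hv => hself v (h.lev_le _ hv) }

end Lev

end Levels

section Config

variable [Finite G] {p : ℕ} [hp : Fact p.Prime]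

/-- `P = A T` is minimal among the products with `A` a largest abelian subgroup outside `T`. -/
structure DegCfg (p : ℕ) (S T P : Subgroup G) : Prop where
  odd : p ≠ 2
  pS : IsPGroup p S
  TS : T ≤ S
  ex : ∃ A ∈ abFam 0 S, ¬ A ≤ T ∧ A ⊔ T = P
  min : ∀ A ∈ abFam 0 S, A ≤ P → ¬ A ≤ T → A ⊔ T = P

omit hp in
theorem exists_degCfg (hp2 : p ≠ 2) {S T : Subgroup G} (hS : IsPGroup p S) (hT : T ≤ S)
    (h : ∃ A ∈ abFam 0 S, ¬ A ≤ T) : ∃ P, DegCfg p S T P := by
  obtain ⟨A, ⟨hA, hAT⟩, hmin⟩ := Set.exists_min_image {A | A ∈ abFam 0 S ∧ ¬ A ≤ T}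
    (fun A => Nat.card ↥(A ⊔ T)) (Set.toFinite _) h
  exact ⟨A ⊔ T, hp2, hS, hT, ⟨A, hA, hAT, rfl⟩, fun B hB h1 h2 =>
    eq_of_le_of_card_ge (sup_le h1 le_sup_right) (hmin B ⟨hB, h2⟩)⟩

namespace DegCfg

variable {S T P : Subgroup G} (h : DegCfg p S T P)
include h

omit [Finite G] hp in
theorem TP : T ≤ P := let ⟨_, _, _, h1⟩ := h.ex; h1 ▸ le_sup_right

omit [Finite G] hp in
theorem PS : P ≤ S := let ⟨_, hA, _, h1⟩ := h.ex; h1 ▸ sup_le (abFam_le hA) h.TS

omit [Finite G] hp in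
theorem PP [T.Normal] : ⁅P, P⁆ ≤ T := by
  obtain ⟨A, hA, -, rfl⟩ := h.ex
  rw [commutator_le_iff_map_mk', Subgroup.map_sup, map_mk'_eq_bot_iff.2 le_rfl, sup_bot_eq]
  exact commutator_self_eq_bot_iff.2 (th_comm_map _ (abFam_comm hA))

omit [Finite G] in
theorem sq_root {v : G} (hv : v ∈ S) : ∃ n : ℕ, (v ^ 2) ^ n = v := by
  obtain ⟨k, hk⟩ := h.pS ⟨v, hv⟩
  obtain ⟨j, -, hj⟩ := (Nat.dvd_prime_pow hp.out).1
    (orderOf_dvd_of_pow_eq_one (congrArg Subtype.val hk))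
  refine exists_pow_eq_self_of_coprime ?_
  rw [hj]
  exact ((Nat.coprime_primes Nat.prime_two hp.out).2 h.odd.symm).pow_right j

omit h hp in
theorem mem_of_comm {A : Subgroup G} (hA : A ∈ abFam 0 S) {v : G} (hv : v ∈ S)
    (h1 : ∀ c ∈ A, ⁅c, v⁆ = 1) : v ∈ A :=
  mem_of_abFam_of_centralizer hA hv
    (fun c hc => commutatorElement_eq_one_iff_mul_comm.1 (h1 c hc)) (pow_zero v)

omit hp in
theorem exists_max {Y : Subgroup G} (hY : Y ≤ T) (hc : IsMulCommutative Y) :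
    ∃ A ∈ abFam 0 S, A ⊔ T = P ∧ ∀ y, (∀ a ∈ A, ⁅a, y⁆ ∈ Y) → ¬ Tw.Nil A 2 y →
      ∀ b ∈ A, (∀ a ∈ A, ⁅b, ⁅a, y⁆⁆ = 1) → b ∈ T := by
  obtain ⟨A₀, h1, h2, h3⟩ := h.ex
  obtain ⟨A, ⟨hA, hAP, hAT⟩, hmax⟩ := Set.exists_max_image
    {A | A ∈ abFam 0 S ∧ A ≤ P ∧ ¬ A ≤ T} (fun A => Nat.card ↥(A ⊓ Y)) (Set.toFinite _)
    ⟨A₀, h1, h3 ▸ le_sup_left, h2⟩
  refine ⟨A, hA, h.min A hA hAP hAT, fun y hy hn b hb h4 => by_contra fun hbT => hn ?_⟩
  have e : ∀ a, y⁻¹⁻¹ * a * y⁻¹ * a⁻¹ = ⁅a, y⁆⁻¹ := fun a => by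
    simp only [commutatorElement_def]; group
  have hM : thCommElt y⁻¹ A ≤ Y := (closure_le _).2 (by
    rintro _ ⟨a, ha, rfl⟩
    rw [e]
    exact inv_mem (hy a ha))
  obtain ⟨h5, h6⟩ := thompson_commElt (abFam_comm hA) (th_comm_mono hc hM)
  set M := thCommElt y⁻¹ A with hMdef
  have h7 : M ⊔ (A ⊓ centralizer (M : Set G)) ≤ P :=
    sup_le ((hM.trans hY).trans h.TP) (inf_le_left.trans hAP)
  have h8 : b ∈ A ⊓ centralizer (M : Set G) := by
    refine ⟨hb, ?_⟩
    rw [hMdef, thCommElt, centralizer_closure]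
    rintro _ ⟨a, ha, rfl⟩
    rw [e]
    exact (commutatorElement_eq_one_iff_commute.1 (h4 a ha)).inv_right.symm
  have h9 := hmax _ ⟨mem_abFam_of_card_le hA (h7.trans h.PS) h5 (fun _ _ => pow_zero _) h6, h7,
    fun h9 => hbT (h9 (mem_sup_right h8))⟩
  have h10 : A ⊓ Y ≤ (M ⊔ (A ⊓ centralizer (M : Set G))) ⊓ Y := fun a ha =>
    ⟨mem_sup_right ⟨ha.1, fun m hm => th_comm_iff.1 hc m (hM hm) a ha.2⟩, ha.2⟩
  have h11 : M ≤ A := ((le_inf le_sup_left hM).trans (eq_of_le_of_card_ge h10 h9).ge).trans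
    inf_le_left
  intro a ha c hc
  have h12 := inv_mem (h11 (mem_thCommElt ha))
  rw [e, inv_inv] at h12
  exact commutatorElement_eq_one_iff_mul_comm.2 (th_comm_iff.1 (abFam_comm hA) c hc _ h12)

theorem deep {A X Z : Subgroup G} {x : G} (hA : A ∈ abFam 0 S) (hX : X ≤ S) (ht : Tw A X Z x)
    (hH : ∀ y ∈ X, ¬ Tw.Nil A 2 y → ∀ b ∈ A, (∀ a ∈ A, ⁅b, ⁅a, y⁆⁆ = 1) → b ∈ T)
    {K : Subgroup G} [K.Normal] (hZ : Z ≤ K) (hK : ∀ b ∈ T, ⁅b, x⁆ ∈ K)
    {c d e : G} (hc : c ∈ A) (hd : d ∈ A) (he : e ∈ A) : ⁅e, ⁅d, ⁅c, x⁆⁆⁆ ∈ K := by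
  have := h.pS.isNilpotent
  obtain ⟨n, hn⟩ := Tw.exists_nil (abFam_le hA)
  obtain ⟨b, hb, z, hz, k, hk, h1⟩ := ht.deep (fun B h1 h2 => abFam_card_le hA
    (h1.trans (sup_le (abFam_le hA) hX)) h2 fun _ _ => pow_zero _) ⟨n, fun v hv => hn v (hX hv)⟩
    hH hc hd
  rw [h1, tw_mul_right, ht.phi_A he hk, mul_one, mul_inv_cancel, mul_one]
  exact commutator_le_right ⊤ K (commutator_mem_commutator (mem_top _)
    (mul_mem (hZ hz) (pow_mem (hK b hb.2) 2)))

variable [T.Normal]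

theorem quad {z : G} (hz : z ∈ zc T) {a : G} (ha : a ∈ P) : ⁅a, z⁆ ∈ centralizer (P : Set G) := by
  obtain ⟨U, hU, hUT, hUP⟩ := h.ex
  have hBc : IsMulCommutative (zc T) := th_center_comm _
  have h0 : ⁅zc T, zc T⁆ ≤ ⊥ := (commutator_self_eq_bot_iff.2 hBc).le
  obtain ⟨A, hA, hAP, hBA⟩ : ∃ A ∈ abFam 0 S, A ⊔ T = P ∧ zc T ≤ normalizer (A : Set G) := by
    by_cases hBU : zc T ≤ U
    · exact ⟨U, hU, hUP, hBU.trans le_normalizer⟩
    · have h1 : U ≤ P := hUP ▸ le_sup_left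
      obtain ⟨A, hA, -, h2, h3⟩ := abFam_exists_normalized (Or.inl rfl) h.pS h.PS
        (inf_le_left.trans h.TS) th_le_norm ((inf_le_left.trans h.TP).trans le_normalizer)
        (fun _ => hBc) (mem_abFam_of_le hU h1 h.PS) (h0.trans bot_le) hBU
      have hA' := abFam_subset_of_mem hU h1 h.PS hA
      refine ⟨A, hA', h.min A hA' (abFam_le hA) fun h4 => h2 ?_, h3⟩
      rw [← abFam_zero_inf_centralizer hA']
      exact le_inf (inf_le_left.trans h.TS) (inf_le_right.trans (centralizer_le h4))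
  have h1 : z ∈ upSer (zc T) ⊥ A 2 := mem_upSer_of_nil bot_le h0 hz fun a ha c hc =>
    commutatorElement_eq_one_iff_mul_comm.2 (th_comm_iff.1 (abFam_comm hA) c hc _
      (le_normalizer_iff_commutator_le_left.1 hBA (commutator_mem_commutator ha hz)))
  have h2 := upSer_sup (T := T) bot_le h0
    (commutator_eq_bot_iff_le_centralizer.2 (le_centralizer_iff.1 inf_le_right)).le 2 h1
  rw [hAP] at h2
  exact fun c hc => commutatorElement_eq_one_iff_mul_comm.1
    (((mem_upSer_succ bot_le h0).1 (((mem_upSer_succ bot_le h0).1 h2).2 a ha)).2 c hc)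

theorem iter_three {W U V : Subgroup G} [W.Normal] [U.Normal] [V.Normal] (hW : W ≤ T)
    (hc : IsMulCommutative W) (hU : U ≤ W) (hV : V ≤ U) (hTU : ⁅T, U⁆ ≤ V) :
    iterCommutator U P 3 ≤ V := by
  obtain ⟨A, hA, hAP, hH⟩ := h.exists_max hW hc
  have h0 : ⁅U, U⁆ ≤ V := (commutator_mono (hU.trans hW) le_rfl).trans hTU
  have h1 := th_comm_iff.1 hc
  have h2 : ∀ v ∈ W, ∀ w ∈ W, ⁅v, w⁆ = 1 := fun v hv w hw =>
    commutatorElement_eq_one_iff_mul_comm.2 (h1 v hv w hw)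
  refine iter_le_of_upSer (Q := U) (hAP ▸ le_trans (fun x hx => ?_) (upSer_sup hV h0 hTU 3))
  have ht : Tw A W ⊥ x :=
    { comm := th_comm_iff.1 (abFam_comm hA)
      phi_mem := fun a _ v hv => Lev.phi_mem a hv
      phi_cent := fun a _ v hv w hw => h1 _ (Lev.phi_mem a hv) w hw
      gam := fun a _ => Lev.phi_mem a (hU hx)
      ZX := bot_le
      Zc := fun z hz w _ => mem_bot.1 hz ▸ Commute.one_left w
      Zx := fun z hz => mem_bot.1 hz ▸ Commute.one_left x
      xX := fun v hv => h2 x (hU hx) v hv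
      XX := h2
      XXA := fun v hv w hw c _ => by rw [h2 v hv w hw, commutatorElement_one_right]
      phiZA := fun a _ z hz c _ => by simp [mem_bot.1 hz]
      xphi := fun a _ v hv c _ => by
        rw [h2 x (hU hx) _ (Lev.phi_mem a hv), commutatorElement_one_right]
      odd := fun v hv => h.sq_root (h.TS (hW hv))
      self := fun v hv => mem_of_comm hA (h.TS (hW hv)) }
  exact (mem_upSer_succ hV h0).2 ⟨hx, fun c hc => (mem_upSer_succ hV h0).2
    ⟨Lev.phi_mem c hx, fun d hd => (mem_upSer_succ hV h0).2 ⟨Lev.phi_mem d (Lev.phi_mem c hx),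
      fun e he => h.deep hA (hW.trans h.TS) ht (fun y hy => hH y fun a _ => Lev.phi_mem a hy)
        bot_le (fun b hb => hTU (commutator_mem_commutator hb hx)) hc hd he⟩⟩⟩

theorem iter_four {Q : Subgroup G} [Q.Normal] (hQ : Q ≤ T) (hTQ : ⁅T, Q⁆ ≤ zc Q) :
    iterCommutator Q P 4 ≤ zc Q := by
  have h0 : ⁅Q, Q⁆ ≤ zc Q := (commutator_mono hQ le_rfl).trans hTQ
  have hZ : ⁅Q, Q⁆ ≤ zc T := by
    have h1 : ⁅⁅T, Q⁆, Q⁆ = ⊥ :=
      commutator_eq_bot_iff_le_centralizer.2 (hTQ.trans inf_le_right)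
    exact le_inf ((commutator_le_left _ _).trans hQ) (commutator_eq_bot_iff_le_centralizer.1
      (commutator_commutator_eq_bot_of_rotate (commutator_comm T Q ▸ h1) h1))
  have := h.pS.isNilpotent
  obtain ⟨n, hn⟩ := Tw.exists_nil h.PS
  refine iter_le_of_upSer (Q := Q) (le_trans (fun v hv => mem_upSer_of_nil inf_le_left h0 hv
    (hn v (h.TS (hQ hv)))) (upSer_le_of_succ_le inf_le_left h0 (fun u hu => ?_) n))
  have hL : Lev Q T P u :=
    ⟨hQ, hTQ, h.PP, fun z hz a ha => h.quad (hZ hz) ha, fun v hv => h.sq_root (h.TS (hQ hv)), hu⟩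
  obtain ⟨A, hA, hAP, hH⟩ := h.exists_max ((hL.lev_le 3).trans hQ)
    (th_comm_iff.2 fun v hv w hw => hL.lev_commute (by norm_num) hv hw)
  have hAP' : A ≤ P := hAP ▸ le_sup_left
  have huQ : u ∈ Q := hu.1
  refine (mem_upSer_succ inf_le_left h0).2 ⟨huQ, fun a ha => ?_⟩
  have hx := Lev.phi_mem a huQ
  rw [← hAP]
  refine upSer_sup inf_le_left h0 hTQ 3 ?_
  exact (mem_upSer_succ inf_le_left h0).2 ⟨hx, fun c hc => (mem_upSer_succ inf_le_left h0).2
    ⟨Lev.phi_mem c hx, fun d hd => (mem_upSer_succ inf_le_left h0).2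
      ⟨Lev.phi_mem d (Lev.phi_mem c hx), fun e he => h.deep hA (((hL.lev_le 2).trans hQ).trans h.TS)
        (hL.tw (abFam_comm hA) hAP' (fun v hv => mem_of_comm hA (h.TS (hQ hv))) ha)
        (fun y hy => hH y fun a ha => hL.phi_lev (hAP' ha) hy) h0
        (fun b hb => hTQ (commutator_mem_commutator hb hx)) hc hd he⟩⟩⟩

end DegCfg

/-- Glauberman: degree bounds on chief factors when `J(S)` is not normal. -/
theorem exists_degree_of_not_normal (hp2 : p ≠ 2) (S : Sylow p G)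
    (h : ¬ (thJ 0 (S : Subgroup G)).Normal) : ∃ g ∈ (S : Subgroup G), g ∉ pCore p G ∧
      (∀ U V : Subgroup G, IsChiefFactor U V → U ≤ pCore p G →
        iterCommutator U (zpowers g) 6 ≤ V) ∧
      (Con p G → ∃ U V : Subgroup G, IsChiefFactor U V ∧ U ≤ pCore p G ∧
        iterCommutator U (zpowers g) 4 ≤ V ∧ ¬ ⁅U, zpowers g⁆ ≤ V) := by
  obtain ⟨P, hP⟩ := exists_degCfg hp2 S.isPGroup' (pCore_le_sylow S) (exists_abFam_not_le_pCore S h)
  obtain ⟨Q, _, hQ, h1, h2, h3⟩ := exists_critical (pCore p G) (isPGroup_pCore p)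
  obtain ⟨A, hA, hAT, hAP⟩ := hP.ex
  obtain ⟨g, hg, hgT⟩ := SetLike.not_le_iff_exists.1 hAT
  have hgP : zpowers g ≤ P := zpowers_le.2 (hAP ▸ mem_sup_left hg)
  have h4 : ∀ U V : Subgroup G, IsChiefFactor U V → U ≤ Q →
      iterCommutator (U ⊓ zc Q) (zpowers g) 3 ≤ V := fun U V h4 h5 => by
    have := h4.2.1
    have := h4.2.2.1
    refine ((PG.iterCommutator_mono le_rfl hgP 3).trans (hP.iter_three (V := V ⊓ zc Q)
      (inf_le_left.trans hQ) (th_center_comm _) inf_le_right (inf_le_inf_right _ h4.1.le)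
      (le_inf ?_ ((commutator_le_right _ _).trans inf_le_right)))).trans inf_le_left
    rw [commutator_comm]
    exact (commutator_mono inf_le_left le_rfl).trans
      (le_chiefStab.1 (pCore_le_chiefStab Q) U V h4 h5)
  have h5 : ∀ U V : Subgroup G, IsChiefFactor U V → U ≤ Q →
      iterCommutator U (zpowers g) 4 ≤ V := fun U V h5 h6 => by
    have := h5.2.2.1
    exact chief_iter_le (Z := zc Q) h5 (iterCommutator_le_of_le (by norm_num) (h4 U V h5 h6))
      ((PG.iterCommutator_mono h6 hgP 4).trans (hP.iter_four hQ h1))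
  refine ⟨g, abFam_le hA hg, hgT, fun U V => feit_lemma (i := 4) (j := 3) (isPGroup_pCore p) h1 h2
    (by norm_num) h5 fun U V h6 h7 => ?_, fun hc => ?_⟩
  · have h8 := h4 U V h6 (h7.trans inf_le_left)
    rwa [inf_of_le_left h7] at h8
  by_contra h6
  refine hgT (chiefStab_le_pCore hc ((isPGroup_pCore p).to_le hQ) h3
    (mem_chiefStab.2 fun U V h7 h8 => by_contra fun h9 => ?_))
  exact h6 ⟨U, V, h7, h8.trans hQ, h5 U V h7 h8, h9⟩

end Config

end Cfsg.Agent.GT
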