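import Mathlib
import Cfsg.Agent.GT.TwoLenGrp
import Cfsg.Agent.GT.PGroupChain

/-!
# Chains of augmentation ideals along the derived series of a 2-group

The local step in the bound of the 2-length by the derived length of a Sylow 2-subgroup.
-/

set_option autoImplicit false

namespace Cfsg.Agent.GT.TL

open Subgroup
open scoped commutatorElement

variable {E : Type*} [Ring E] {Γ : Type*} [Group Γ]

/-- `h * (y_{i-1} - 1) * ⋯ * (y_0 - 1) = 0` whenever `y_j` lies in the `j`-th derived subgroup. -/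
def Ann (θ : Γ →* E) : ℕ → E → Prop
  | 0, h => h = 0
  | i + 1, h => ∀ y ∈ derivedSeries Γ i, Ann θ i (h * (θ y - 1))

theorem Ann.mul_eq_zero {θ : Γ →* E} {i : ℕ} {h : E} (H : Ann θ i h) {x : Γ}
    (hx : x ∈ derivedSeries Γ i) : h * (θ x - 1) = 0 := by
  induction i generalizing h x with
  | zero => rw [show h = 0 from H, zero_mul]
  | succ i ih =>
    let S : Subgroup Γ :=
      { carrier := {x | h * θ x = h}
        one_mem' := by simp
        mul_mem' := fun {a b} (ha : h * θ a = h) (hb : h * θ b = h) => by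
          change h * θ (a * b) = h
          rw [map_mul, ← mul_assoc, ha, hb]
        inv_mem' := fun {a} (ha : h * θ a = h) => by
          change h * θ a⁻¹ = h
          conv_lhs => rw [← ha, mul_assoc, ← map_mul, mul_inv_cancel, map_one, mul_one] }
    have : derivedSeries Γ (i + 1) ≤ S := commutator_le.2 fun a ha b hb => by
      have h1 := ih (H a ha) hb
      have h2 := ih (H b hb) ha
      have h3 : h * θ (a * b) = h * θ (b * a) := by
        rw [map_mul, map_mul, ← sub_eq_zero, ← sub_self (0 : E)]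
        nth_rw 1 [← h1]
        rw [← h2]
        noncomm_ring
      change h * θ ⁅a, b⁆ = h
      rw [show ⁅a, b⁆ = a * b * (b * a)⁻¹ by simp [commutatorElement_def, mul_assoc], map_mul,
        ← mul_assoc, h3, mul_assoc, ← map_mul, mul_inv_cancel, map_one, mul_one]
    rw [mul_sub, mul_one, sub_eq_zero]
    exact this hx

theorem Ann.of_rel {E' Γ' : Type*} [Ring E'] [Group Γ'] {θ : Γ →* E} {θ' : Γ' →* E'} (j : ℕ)
    (Rel : E → E' → Prop) (h0 : ∀ h h', Rel h h' → Ann θ j h → h' = 0)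
    (hs : ∀ i, ∀ y' ∈ derivedSeries Γ' i, ∃ y ∈ derivedSeries Γ (j + i),
      ∀ h h', Rel h h' → Rel (h * (θ y - 1)) (h' * (θ' y' - 1))) {i : ℕ} {h : E} {h' : E'}
    (hr : Rel h h') (H : Ann θ (j + i) h) : Ann θ' i h' := by
  induction i generalizing h h' with
  | zero => exact h0 h h' hr H
  | succ i ih =>
    intro y' hy'
    obtain ⟨y, hy, h1⟩ := hs i y' hy'
    exact ih (h1 h h' hr) (H y hy)

variable {W M R : Type*} [CommGroup W] [MulDistribMulAction Γ W] [Group M] [AddCommGroup R]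

theorem exists_eigen {δ : Γ} (hδ : δ * δ = 1) {w : W} (hw : w ≠ 1) : ∃ w' : W, w' ≠ 1 ∧
    (δ • w' = w' ∨ δ • w' = w'⁻¹) ∧ ∀ γ : Γ, Commute γ δ → γ • w = w⁻¹ → γ • w' = w'⁻¹ := by
  by_cases h : δ • w = w
  · exact ⟨w, hw, Or.inl h, fun _ _ h => h⟩
  · refine ⟨δ • w * w⁻¹, fun h1 => h (mul_inv_eq_one.1 h1), Or.inr ?_, fun γ h1 h2 => ?_⟩
    · rw [smul_mul', smul_inv', ← mul_smul, hδ, one_smul, mul_inv, inv_inv, mul_comm]
    · rw [smul_mul', smul_inv', neg_smul_of_commute h1 h2, h2, mul_inv]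

/-- A 2-group `Γ` and a group `M` of odd order, represented together in a ring of characteristic
two with a trace, `M` acting as a group of symplectic type with symplectic space `W`. -/
structure Ctx (μ : M →* W) (σ : M →* E) (θ : Γ →* E) (t : E →+ R) : Prop where
  odd : OddGrp W
  two : (2 : E) = 0
  surj : Function.Surjective μ
  conj : ∀ γ m, ∃ m', θ γ * σ m = σ m' * θ γ ∧ μ m' = γ • μ m
  pos : ∀ (γ : Γ) m, γ • μ m = μ m → Commute (θ γ) (σ m)
  ort : ∀ (γ : Γ) m m', γ • μ m = (μ m)⁻¹ → γ • μ m' = μ m' → Commute (σ m) (σ m')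
  t1 : t 1 ≠ 0
  t0 : ∀ m, μ m ≠ 1 → t (σ m) = 0

/-- The invariant of the induction showing that elementary abelian groups act freely. -/
structure Good (μ : M →* W) (σ : M →* E) (θ : Γ →* E) (t : E →+ R) (F : Subgroup Γ) (h : E) :
    Prop where
  c1 : ∀ γ ∈ F, Commute h (θ γ)
  c2 : ∀ γ ∈ F, ∀ m, γ • μ m = (μ m)⁻¹ → Commute h (σ m)
  c3 : ∀ γ ∈ F, ∀ m, γ • μ m ≠ μ m → t (h * σ m) = 0
  c4 : t h ≠ 0

variable {μ : M →* W} {σ : M →* E} {θ : Γ →* E} {t : E →+ R} (C : Ctx μ σ θ t)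
include C

theorem Ctx.good : Good μ σ θ t ⊤ 1 :=
  ⟨fun _ _ => Commute.one_left _, fun _ _ _ _ => Commute.one_left _,
    fun γ _ m h => by
      rw [one_mul]
      exact C.t0 m fun h1 => h (by rw [h1, smul_one]), C.t1⟩

theorem Ctx.step {F : Subgroup Γ} {h : E} (H : Good μ σ θ t F h) {a : Γ} (ha : a ∈ F) {w : W}
    (hw : a • w = w⁻¹) (hw1 : w ≠ 1) {k : E} (hk : ∀ m, μ m = w → Commute k (σ m))
    (h0 : h * (θ a - 1) * k = 0) :
    ∃ h', Good μ σ θ t (F ⊓ MulAction.stabilizer Γ w) h' ∧ h' * k = 0 := by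
  obtain ⟨u, rfl⟩ := C.surj w
  obtain ⟨u', h1, h2⟩ := C.conj a u
  have h3 : μ (u⁻¹ * u') = (μ u * μ u)⁻¹ := by rw [map_mul, map_inv, h2, hw, mul_inv]
  have h4 : ∀ γ : Γ, γ • μ u = μ u → γ • μ (u⁻¹ * u') = μ (u⁻¹ * u') := fun γ hγ => by
    rw [h3, smul_inv', smul_mul', hγ]
  have h5 : a • μ (u⁻¹ * u') = (μ (u⁻¹ * u'))⁻¹ := by
    rw [h3, smul_inv', smul_mul', hw, ← mul_inv]
  refine ⟨h * (σ (u⁻¹ * u') - 1), ⟨fun γ hγ => (H.c1 γ hγ.1).mul_left
    ((C.pos γ _ (h4 γ hγ.2)).symm.sub_left (Commute.one_left _)), fun γ hγ m hm =>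
    (H.c2 γ hγ.1 m hm).mul_left ((C.ort γ m _ hm (h4 γ hγ.2)).symm.sub_left (Commute.one_left _)),
    fun γ hγ m hm => ?_, ?_⟩, ?_⟩
  · rw [mul_assoc, sub_mul, one_mul, mul_sub, map_sub, H.c3 γ hγ.1 m hm, ← map_mul,
      H.c3 γ hγ.1 _ fun h6 => hm ?_, sub_self]
    rwa [map_mul μ (u⁻¹ * u'), smul_mul', h4 γ hγ.2, mul_right_inj] at h6
  · rw [mul_sub, mul_one, map_sub, H.c3 a ha _ fun h6 => hw1 ?_, zero_sub, neg_ne_zero]
    · exact H.c4
    · have h7 := C.odd.eq_one (h6.symm.trans h5)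
      rw [h3, inv_eq_one] at h7
      exact C.odd.inj _ h7
  · have h6 : θ a * (h * k) = h * k := by
      rw [← sub_eq_zero, ← h0, ← mul_assoc, ← (H.c1 a ha).eq]
      noncomm_ring
    have h7 : Commute (σ u) (h * k) := (H.c2 a ha u hw).symm.mul_right (hk u rfl).symm
    have h8 : σ u' * (h * k) = σ u * (h * k) := by
      conv_lhs => rw [← h6, ← mul_assoc, ← h1, mul_assoc, h7.eq, ← mul_assoc, h6, ← h7.eq]
    rw [((H.c2 a ha _ h5).sub_right (Commute.one_right h)).eq, mul_assoc, sub_mul, one_mul,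
      map_mul, mul_assoc, h8, ← mul_assoc, ← map_mul, inv_mul_cancel, map_one, one_mul, sub_self]

theorem Ctx.sub_mul_self {a : Γ} (ha : a * a = 1) : (θ a - 1) * θ a = θ a - 1 := by
  rw [sub_mul, ← map_mul, ha, map_one, one_mul, ← sub_eq_zero, ← mul_zero (1 - θ a), ← C.two]
  noncomm_ring

theorem Ctx.adjust {F : Subgroup Γ} {a c : Γ} (haF : a ∈ F) (hcF : c ∈ F) (ha : a * a = 1)
    (hc : c * c = 1) (hac : Commute a c) {w : W} (hw : a • w = w⁻¹)
    (hcw : c • w = w ∨ c • w = w⁻¹) : ∃ c' ∈ F ⊓ MulAction.stabilizer Γ w, c' * c' = 1 ∧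
      (c' = c ∨ c' = a * c) ∧ (θ a - 1) * (θ c' - 1) = (θ a - 1) * (θ c - 1) := by
  rcases hcw with h | h
  · exact ⟨c, ⟨hcF, h⟩, hc, Or.inl rfl, rfl⟩
  · refine ⟨a * c, ⟨mul_mem haF hcF, ?_⟩, by rw [hac.symm.mul_mul_mul_comm, ha, hc, mul_one],
      Or.inr rfl, ?_⟩
    · change (a * c) • w = w
      rw [mul_smul, h, smul_inv', hw, inv_inv]
    · rw [map_mul, mul_sub, ← mul_assoc, C.sub_mul_self ha, ← mul_sub]

variable [FaithfulSMul Γ W]

theorem Ctx.free₁ {F : Subgroup Γ} {h : E} (H : Good μ σ θ t F h) {c : Γ} (hF : c ∈ F)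
    (hc : c * c = 1) (h1 : c ≠ 1) : h * (θ c - 1) ≠ 0 := fun h0 => by
  obtain ⟨w, hw, hw1⟩ := C.odd.exists_neg hc h1
  obtain ⟨h', H', h2⟩ := C.step H hF hw hw1 (k := 1) (fun _ _ => Commute.one_left _)
    (by rwa [mul_one])
  exact H'.c4 (by rw [← mul_one h', h2, map_zero])

theorem Ctx.free₂ {F : Subgroup Γ} {h : E} (H : Good μ σ θ t F h) {b c : Γ} (hbF : b ∈ F)
    (hcF : c ∈ F) (hb : b * b = 1) (hc : c * c = 1) (hbc : Commute b c) (h1 : b ≠ 1) (h2 : c ≠ 1)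
    (h3 : b * c ≠ 1) : h * (θ b - 1) * (θ c - 1) ≠ 0 := fun h0 => by
  obtain ⟨w₀, hw₀, hw1⟩ := C.odd.exists_neg hb h1
  obtain ⟨w, hw1, hw2, hw3⟩ := exists_eigen hc hw1
  obtain ⟨c', hc', h4, h5, h6⟩ := C.adjust hbF hcF hb hc hbc (hw3 b hbc hw₀) hw2
  obtain ⟨h', H', h7⟩ := C.step H hbF (hw3 b hbc hw₀) hw1 (k := θ c' - 1)
    (fun m hm => (C.pos c' m (hm ▸ hc'.2)).sub_left (Commute.one_left _))
    (by rwa [mul_assoc, h6, ← mul_assoc])
  exact C.free₁ H' hc' h4 (by rcases h5 with rfl | rfl <;> assumption) h7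

theorem Ctx.free₃ {a b c : Γ} (ha : a * a = 1) (hb : b * b = 1) (hc : c * c = 1)
    (hab : Commute a b) (hac : Commute a c) (hbc : Commute b c) (h1 : a ≠ 1) (h2 : b ≠ 1)
    (h3 : a * b ≠ 1) (h4 : c ≠ 1) (h5 : a * c ≠ 1) (h6 : b * c ≠ 1) (h7 : a * (b * c) ≠ 1) :
    (θ a - 1) * (θ b - 1) * (θ c - 1) ≠ 0 := fun h0 => by
  obtain ⟨w₀, hw₀, hw1⟩ := C.odd.exists_neg ha h1
  obtain ⟨w₁, hw1, hw2, hw3⟩ := exists_eigen hb hw1
  obtain ⟨w, hw1, hw4, hw5⟩ := exists_eigen hc hw1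
  have hw := hw5 a hac (hw3 a hab hw₀)
  have hbw : b • w = w ∨ b • w = w⁻¹ := by
    refine hw2.symm.elim (fun h => Or.inr (hw5 b hbc h)) fun h => Or.inl ?_
    have := hw5 (a * b) (hac.mul_left hbc) (by rw [mul_smul, h, hw3 a hab hw₀])
    rwa [hab.eq, mul_smul, hw, smul_inv', inv_inj] at this
  obtain ⟨b', hb', e1, e2, e3⟩ := C.adjust (mem_top a) (mem_top b) ha hb hab hw hbw
  obtain ⟨c', hc', e4, e5, e6⟩ := C.adjust (mem_top a) (mem_top c) ha hc hac hw hw4
  have e7 : ∀ {x y : Γ}, Commute x y → Commute (θ x - 1) (θ y - 1) := fun h =>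
    ((h.map θ).sub_left (Commute.one_left _)).sub_right (Commute.one_right _)
  obtain ⟨h', H', e8⟩ := C.step C.good (mem_top a) hw hw1 (k := (θ b' - 1) * (θ c' - 1))
    (fun m hm => ((C.pos b' m (hm ▸ hb'.2)).sub_left (Commute.one_left _)).mul_left
      ((C.pos c' m (hm ▸ hc'.2)).sub_left (Commute.one_left _)))
    (by rwa [one_mul, ← mul_assoc, e3, (e7 hab).eq, mul_assoc, e6, ← mul_assoc, ← (e7 hab).eq])
  refine C.free₂ H' hb' hc' e1 e4 ?_ ?_ ?_ ?_ (by rwa [mul_assoc])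
  · rcases e2 with rfl | rfl <;> rcases e5 with rfl | rfl
    exacts [hbc, hab.symm.mul_right hbc, hac.mul_left hbc,
      ((Commute.refl a).mul_right hac).mul_left (hab.symm.mul_right hbc)]
  · rcases e2 with rfl | rfl <;> assumption
  · rcases e5 with rfl | rfl <;> assumption
  · rcases e2 with rfl | rfl <;> rcases e5 with rfl | rfl
    · exact h6
    · rwa [hab.symm.left_comm]
    · rwa [mul_assoc]
    · rwa [hab.symm.mul_mul_mul_comm, ha, one_mul]

theorem Ctx.injective : Function.Injective θ := (injective_iff_map_eq_one θ).2 fun γ h =>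
  FaithfulSMul.eq_of_smul_eq_smul (α := W) fun w => by
    obtain ⟨m, rfl⟩ := C.surj w
    obtain ⟨m', h1, h2⟩ := C.conj γ m
    rw [h, one_mul, mul_one] at h1
    rw [← h2, one_smul, ← mul_inv_eq_one, ← map_inv, ← map_mul]
    by_contra h3
    have := C.t0 _ h3
    rw [map_mul, ← h1, ← map_mul, mul_inv_cancel, map_one] at this
    exact C.t1 this

theorem Ctx.core [Finite Γ] (hΓ : IsPGroup 2 Γ) {A : Subgroup Γ} [hA : A.Normal]
    (hA4 : ∀ a ∈ A, a * a * (a * a) = 1) {k : ℕ} (hv : Ann θ (k + 2) 1) {y n : Γ}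
    (hy : y ∈ derivedSeries Γ k) (hn : n ∈ derivedSeries Γ k) (hnA : n ∈ A) :
    ∃ x ∈ A, ⁅y, n⁆ = x * x := by
  by_contra hcon
  push Not at hcon
  have e0 : ∀ x : Γ, (θ x - 1) * (θ x - 1) = θ (x * x) - 1 := fun x => by
    rw [map_mul, ← sub_eq_zero, ← mul_zero (1 - θ x), ← C.two]
    noncomm_ring
  have haD : ⁅y, n⁆ ∈ derivedSeries Γ (k + 1) := commutator_mem_commutator hy hn
  have haA : ⁅y, n⁆ ∈ A := by
    simpa [commutatorElement_def] using mul_mem (hA.conj_mem n hnA y) (inv_mem hnA)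
  have hyn : ¬ Commute y n := fun h => hcon 1 A.one_mem (by rw [h.commutator_eq, mul_one])
  generalize ⁅y, n⁆ = a at *
  have ha1 : a ≠ 1 := by simpa using hcon 1 A.one_mem
  have e1 : ∀ d ∈ derivedSeries Γ (k + 1), ∀ d' ∈ derivedSeries Γ (k + 1),
      (θ d - 1) * (θ d' - 1) = 0 := fun d hd d' hd' => by
    simpa using (hv d hd).mul_eq_zero hd'
  have e2 : ∀ d ∈ derivedSeries Γ (k + 1), d * d = 1 := fun d hd =>
    C.injective (by rw [map_one, ← sub_eq_zero, ← e0, e1 d hd d hd])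
  have ha := e2 a haD
  have e3 : ∀ c, c * c = 1 → Commute a c → (θ a - 1) * (θ c - 1) = 0 → c = 1 ∨ c = a :=
    fun c h1 h2 h3 => by
      by_contra h4
      push Not at h4
      exact C.free₂ C.good (mem_top a) (mem_top c) ha h1 h2 ha1 h4.1
        (fun h => h4.2 (mul_left_cancel (h.trans ha.symm))) (by rwa [one_mul])
  have hcen : ∀ r, Commute r a := fun r => by
    have hd := (derivedSeries_normal Γ (k + 1)).conj_mem a haD r
    refine mul_inv_eq_iff_eq_mul.1 ((e3 _ (e2 _ hd) (C.injective ?_)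
      (e1 a haD _ hd)).resolve_left (by simpa using ha1))
    rw [map_mul, map_mul θ _ a, ← sub_eq_zero, ← sub_self (0 : E)]
    nth_rw 1 [← e1 a haD _ hd]
    rw [← e1 _ hd a haD]
    noncomm_ring
  have e4 : ∀ e ∈ derivedSeries Γ k, ∀ e' ∈ derivedSeries Γ k,
      (θ a - 1) * (θ e - 1) * (θ e' - 1) = 0 := fun e he e' he' => by
    simpa using (hv a haD e he).mul_eq_zero he'
  have hn2 : n * n = 1 := (e3 _ (hA4 n hnA) (hcen _).symm
    (by rw [← e0, ← mul_assoc, e4 n hn n hn])).resolve_right (hcon n hnA).symm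
  have hn1 : ∀ z, Commute y z → z * n ≠ 1 := fun z hz h =>
    hyn (eq_inv_of_mul_eq_one_right h ▸ hz.inv_right)
  rcases k with _ | k
  · rcases e3 n hn2 (hcen n).symm (by simpa [Ann] using hv a haD n hn) with rfl | rfl
    exacts [hyn (Commute.one_right y), hyn (hcen y)]
  have hz : ∀ z ∈ zpowers a, z = 1 ∨ z = a := by
    rintro _ ⟨i, rfl⟩
    rcases Int.even_or_odd' i with ⟨j, rfl | rfl⟩
    · exact Or.inl (by simp only [zpow_mul, zpow_two, ha, one_zpow])
    · exact Or.inr (by simp only [zpow_add, zpow_mul, zpow_two, ha, one_zpow, one_mul, zpow_one])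
  have hz' : ∀ z ∈ zpowers a, ∀ r, Commute r z := fun z h r => by
    rcases hz z h with rfl | rfl
    exacts [Commute.one_right r, hcen r]
  have := derivedSeries_normal Γ (k + 1)
  have : (zpowers a).Normal := ⟨fun z hz g => by rwa [(hz' z hz g).eq, mul_inv_cancel_right]⟩
  obtain ⟨x, ⟨hxA, hx⟩, h1, h2, -, h3⟩ := PG.exists_step (N := zpowers a)
    (M := A ⊓ derivedSeries Γ (k + 1)) (H := ⊤) (hΓ.to_subgroup _) (hΓ.to_subgroup _)
    (normalizer_eq_top _).ge (normalizer_eq_top _).ge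
    (lt_of_le_of_ne (zpowers_le.2 ⟨haA, derivedSeries_antitone Γ (Nat.le_succ _) haD⟩) fun h => by
      rcases hz n (h.ge ⟨hnA, hn⟩) with rfl | rfl
      exacts [hyn (Commute.one_right y), hyn (hcen y)])
  have hx2 : x * x = 1 := (hz _ (sq x ▸ h2)).resolve_right (hcon x hxA).symm
  have hc : derivedSeries Γ (k + 1) ≤ centralizer {x} := by
    refine (derivedSeries_antitone Γ (Nat.le_add_left 1 k)).trans (commutator_le.2 fun r _ s _ => ?_)
    have h4 : ∀ g r : Γ, Commute r ⁅x, g⁆ := fun g r => hz' _ (h3 g (mem_top g)) r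
    have h5 : ∀ g : Γ, x * g = ⁅x, g⁆ * (g * x) := fun g => by simp [commutatorElement_def]
    have h6 : x * (r * s) = ⁅x, r⁆ * ⁅x, s⁆ * (r * s * x) := by
      rw [← mul_assoc, h5 r, mul_assoc, mul_assoc, h5 s, (h4 s r).left_comm]
      simp only [mul_assoc]
    have h7 : x * (s * r) = ⁅x, r⁆ * ⁅x, s⁆ * (s * r * x) := by
      rw [← mul_assoc, h5 s, mul_assoc, mul_assoc, h5 r, (h4 r s).left_comm, (h4 s _).eq]
      simp only [mul_assoc]
    have h8 : ⁅r, s⁆ * (s * r) = r * s := by simp [commutatorElement_def, mul_assoc]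
    rw [mem_centralizer_singleton_iff, ← mul_left_inj (s * r), mul_assoc, mul_assoc x, h8, h6, h7,
      ((h4 r _).mul_right (h4 s _)).left_comm, ← mul_assoc _ (s * r), h8]
  have hc' : ∀ e ∈ derivedSeries Γ (k + 1), Commute e x := fun e he =>
    mem_centralizer_singleton_iff.1 (hc he)
  exact C.free₃ ha hx2 hn2 (hcen x).symm (hcen n).symm (hc' n hn).symm ha1
    (fun h => h1 (h ▸ one_mem _))
    (fun h => h1 (eq_inv_of_mul_eq_one_right h ▸ inv_mem (mem_zpowers a)))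
    (by simpa using hn1 1 (Commute.one_right y)) (hn1 a (hcen y)) (hn1 x (hc' y hy))
    (by simpa [mul_assoc] using hn1 (a * x) ((hcen y).mul_right (hc' y hy))) (e4 x hx n hn)

end Cfsg.Agent.GT.TL
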