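import Mathlib
import Cfsg.Agent.GT.TwoLenDer1
import Cfsg.Agent.GT.TwoLenExp
import Cfsg.Agent.GT.Frattini
import Cfsg.Agent.Perm.PermModule

/-!
# The 2-length is at most the derived length of a Sylow 2-subgroup
-/

set_option autoImplicit false

namespace Cfsg.Agent.GT.TL

open Module Subgroup
open scoped commutatorElement IsMulCommutative

universe u

theorem map_derivedSeries_derivedSeries (Γ : Type*) [Group Γ] (j i : ℕ) :
    (derivedSeries (derivedSeries Γ j) i).map (derivedSeries Γ j).subtype =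
      derivedSeries Γ (j + i) := by
  induction i with
  | zero => simp [← MonoidHom.range_eq_map]
  | succ i ih => rw [derivedSeries_succ, map_commutator, ih, ← add_assoc, derivedSeries_succ]

theorem Ann.of_range_le {E Γ Γ' H : Type*} [Ring E] [Group Γ] [Group Γ'] [Group H] {ρ : H →* E}
    {χ : Γ →* H} {ψ : Γ' →* H} (h : ψ.range ≤ χ.range) {N : ℕ} {e : E}
    (H : Ann (ρ.comp χ) N e) : Ann (ρ.comp ψ) N e := by
  have key : ∀ i, (derivedSeries Γ' i).map ψ ≤ (derivedSeries Γ i).map χ := fun i => by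
    induction i with
    | zero => simpa [← MonoidHom.range_eq_map] using h
    | succ i ih =>
      rw [derivedSeries_succ, derivedSeries_succ, map_commutator, map_commutator]
      exact commutator_mono ih ih
  refine Ann.of_rel 0 Eq (fun h h' e (H : h = 0) => e ▸ H) (fun i y' hy' => ?_) rfl
    ((zero_add N).symm ▸ H)
  obtain ⟨y, hy, h1⟩ := key i (mem_map_of_mem ψ hy')
  exact ⟨y, (zero_add i).symm ▸ hy, fun h h' e => by simp [e, h1]⟩

theorem ann_of_rel {k Γ V : Type*} [Field k] [Group Γ] [AddCommGroup V] [Module k V]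
    (θ : Γ →* End k V) (Rel : Γ → V → Prop) (h0 : ∀ v, ∃ n, Rel n v)
    (hs : ∀ y n v, Rel n v → Rel ⁅y, n⁆ ((θ y - 1) v)) {i : ℕ} {h : End k V}
    (H : ∀ n ∈ derivedSeries Γ i, ∀ v, Rel n v → h v = 0) : Ann θ i h := by
  induction i generalizing h with
  | zero => exact LinearMap.ext fun v => (h0 v).elim fun n hn => H n (mem_top n) v hn
  | succ i ih =>
    exact fun y hy => ih fun n hn v hv => H _ (commutator_mem_commutator hy hn) _ (hs y n v hv)

variable {K : Type*} [Field K] {M : Type*} [Group M] {U V : Type*} [AddCommGroup U] [Module K U]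
  [AddCommGroup V] [Module K V] [IsAlgClosed K] [FiniteDimensional K U]
  {σ : Representation K M V} {τ : Representation K M U} {Γ : Type*} [Group Γ] [Finite Γ]
  {ρ : Representation K Γ V} {φ : Γ →* MulAut M}

theorem exists_level [Fintype M] (hM : (Nat.card M : K) ≠ 0) (hΓ : IsPGroup 2 Γ)
    (hρ : ∀ l m, ρ l * σ m = σ (φ l m) * ρ l) (hτ : IrrRep τ) {f : U →ₗ[K] V}
    (hf : ∀ m w, f (τ m w) = σ m (f w)) (hfi : Function.Injective f) {N : ℕ} (hv : Ann ρ N 1) :
    ∃ j < N, derivedSeries Γ j ≤ (repStab τ).comap φ ∧ ∀ h : End K V, Commute h (charProj τ σ) →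
      Ann ρ j h → ∀ f : U →ₗ[K] V, (∀ m w, f (τ m w) = σ m (f w)) →
        ∀ s ∈ (repStab τ).comap φ, ∀ u, h (ρ s (f u)) = 0 := by
  classical
  set S := (repStab τ).comap φ
  set e := charProj τ σ
  have key : ∀ i, (∀ t < i, ¬ derivedSeries Γ t ≤ S) → ∃ g : End K V,
      (∀ h, Ann ρ i h → h * g = 0) ∧ ∀ z ∈ derivedSeries Γ i, ∀ f : U →ₗ[K] V,
        (∀ m w, f (τ m w) = σ m (f w)) → ∀ s ∈ S, ∀ u,
          e (ρ z (g (ρ s (f u)))) = e (ρ z (ρ s (f u))) := fun i hi => by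
    induction i with
    | zero => exact ⟨1, fun h (H : h = 0) => by rw [H, zero_mul], fun _ _ _ _ _ _ _ => rfl⟩
    | succ i ih =>
      obtain ⟨g, h1, h2⟩ := ih fun t ht => hi t (by omega)
      obtain ⟨x, hx, h3⟩ : ∃ x ∈ derivedSeries Γ i, ∀ z ∈ derivedSeries Γ (i + 1), z * x ∉ S := by
        by_contra h
        push Not at h
        refine hi i i.lt_succ_self ((eq_of_sup_of_le_map_frattini
          (K := derivedSeries Γ i ⊓ S) (N := derivedSeries Γ (i + 1)) inf_le_left ?_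
          fun x hx => ?_).ge.trans inf_le_right)
        · rw [← map_derivedSeries_derivedSeries, derivedSeries_one]
          exact map_mono (PG.commutator_le_frattini (hΓ.to_subgroup _))
        · obtain ⟨z, hz, h4⟩ := h x hx
          rw [← inv_mul_cancel_left z x, sup_comm]
          exact mul_mem_sup (inv_mem hz)
            ⟨mul_mem (derivedSeries_antitone Γ i.le_succ hz) hx, h4⟩
      refine ⟨-((ρ x - 1) * g), fun h H => by rw [mul_neg, ← mul_assoc, h1 _ (H x hx), neg_zero],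
        fun z hz f hf s hs u => ?_⟩
      have hz' := derivedSeries_antitone Γ i.le_succ hz
      have h4 := h2 _ (mul_mem hz' hx) f hf s hs u
      have h5 := hτ.charProj_apply_of_notMem hf (hρ (z * x * s))
        (fun h => h3 z hz ((S.mul_mem_cancel_right hs).1 h)) u
      rw [map_mul ρ _ s, End.mul_apply] at h5
      rw [h5, map_mul, End.mul_apply] at h4
      simp [h4, h2 z hz' f hf s hs u]
  have hc : (Nat.card M : K) / finrank K U ≠ 0 := div_ne_zero hM (hτ.finrank_ne_zero hM)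
  have he : ∀ f : U →ₗ[K] V, (∀ m w, f (τ m w) = σ m (f w)) → ∀ s ∈ S, ∀ u,
      e (ρ s (f u)) = ((Nat.card M : K) / finrank K U) • ρ s (f u) := fun f hf s hs u => by
    rw [← End.mul_apply, ← mul_charProj (hρ s) hs, End.mul_apply, charProj_apply_intertwiner hf,
      hτ.charProj_self hM]
    simp
  have := hΓ.isNilpotent
  have hex : ∃ j, derivedSeries Γ j ≤ S := (Group.IsSolvable.solvable (G := Γ)).imp
    fun _ h => h.le.trans bot_le
  refine ⟨Nat.find hex, lt_of_not_ge fun h => ?_, Nat.find_spec hex, fun h H1 H2 f hf s hs u => ?_⟩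
  · obtain ⟨g, h1, h2⟩ := key N fun t ht => Nat.find_min hex (ht.trans_le h)
    have := hτ.nontrivial
    obtain ⟨u, hu⟩ := exists_ne (0 : U)
    have h3 := h2 1 (one_mem _) f hf 1 S.one_mem u
    have h4 := he f hf 1 S.one_mem u
    rw [← one_mul g, h1 1 hv] at h3
    simp only [LinearMap.zero_apply, map_zero, map_one, End.one_apply] at h3 h4
    exact hu (hfi (((smul_eq_zero.1 (h4.symm.trans h3.symm)).resolve_left hc).trans
      (map_zero f).symm))
  · obtain ⟨g, h1, h2⟩ := key _ fun t ht => Nat.find_min hex ht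
    have h3 := congrArg h (h2 1 (one_mem _) f hf s hs u)
    rw [map_one ρ, End.one_apply, End.one_apply, he f hf s hs, ← End.mul_apply, H1.eq,
      End.mul_apply, ← End.mul_apply h, h1 h H2] at h3
    rw [LinearMap.zero_apply, map_zero, map_smul] at h3
    exact (smul_eq_zero.1 h3.symm).resolve_left hc

variable [CharP K 2]

omit [IsAlgClosed K] [FiniteDimensional K U] in
theorem apply_eq_of_mem_scalarSub [Nontrivial U] {α : MulAut M} (hα : α ∈ repStab τ) {j : ℕ}
    (hj : α ^ 2 ^ j = 1) {m : M} (hm : α m * m⁻¹ ∈ scalarSub τ) : τ (α m) = τ m := by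
  obtain ⟨c, hc⟩ := mem_scalarSub.1 hm
  have h1 : ∀ k : ℕ, τ ((α ^ k) m) = c ^ k • τ m := fun k => by
    induction k with
    | zero => simp
    | succ k ih =>
      rw [pow_succ, MulAut.mul_apply, ← inv_mul_cancel_right (α m) m, map_mul, map_mul,
        apply_of_mem_scalarSub (pow_mem hα k) hm, hc, ih, smul_mul_assoc, one_mul, smul_smul,
        pow_succ']
  have h2 := congrArg (· * τ m⁻¹) (h1 (2 ^ j))
  simp only [hj, MulAut.one_apply, smul_mul_assoc, ← map_mul, mul_inv_cancel, map_one] at h2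
  have h3 : c ^ 2 ^ j = 1 := smul_left_injective K (one_ne_zero (α := End K U))
    (h2.symm.trans (one_smul K _).symm)
  have h4 : c = 1 := by
    rwa [← sub_eq_zero, ← one_pow (2 ^ j), ← sub_pow_char_pow, pow_eq_zero_iff (by positivity),
      sub_eq_zero] at h3
  simpa [h4] using h1 1

variable [Finite M] {q : ℕ} [hq : Fact q.Prime]

theorem exists_ctx (hq2 : q ≠ 2) (hM : IsPGroup q M) (hΓ : IsPGroup 2 Γ)
    (hρ : ∀ l m, ρ l * σ m = σ (φ l m) * ρ l) (hτ : IrrRep τ) {f : U →ₗ[K] V}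
    (hf : ∀ m w, f (τ m w) = σ m (f w)) (hfi : Function.Injective f) [(scalarSub τ).Normal]
    [IsMulCommutative (M ⧸ scalarSub τ)] (hS : ∀ γ, φ γ ∈ repStab τ) :
    ∃ (V' : Submodule K V) (σ' : M →* End K V')
      (θ : ((quotAct τ).comp (φ.codRestrict _ hS)).range →* End K V') (t : End K V' →+ K),
      Ctx (QuotientGroup.mk' (scalarSub τ)) σ' θ t ∧
      (∀ γ (v : V'), (θ (MonoidHom.rangeRestrict _ γ) v : V) = ρ γ v) ∧
      ∀ h : End K V, (∀ f : U →ₗ[K] V, (∀ m w, f (τ m w) = σ m (f w)) →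
        ∀ s u, h (ρ s (f u)) = 0) → ∀ v ∈ V', h v = 0 := by
  have := hτ.nontrivial
  have hc : (Nat.card M : K) ≠ 0 := card_ne_zero hq2 hM
  set π := (quotAct τ).comp (φ.codRestrict _ hS)
  have hP : ∀ γ (m : M), π γ (m : M ⧸ scalarSub τ) = m → τ (φ γ m) = τ m := fun γ m h => by
    obtain ⟨j, hj⟩ := hΓ γ
    exact apply_eq_of_mem_scalarSub (hS γ) (by rw [← map_pow, hj, map_one])
      ((quotAct_pos_iff ⟨_, hS γ⟩ m).1 h)
  have hρ' : ∀ γ m v, σ m (ρ γ v) = ρ γ (σ (φ γ⁻¹ m) v) := fun γ m v => by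
    rw [← End.mul_apply (ρ γ), hρ, ← MulAut.mul_apply, ← map_mul, mul_inv_cancel, map_one]
    rfl
  let ρH : Representation K π.ker (U →ₗ[K] V) :=
    { toFun := fun c => LinearMap.llcomp K U V V (ρ c)
      map_one' := LinearMap.ext fun f => LinearMap.ext fun u => by simp
      map_mul' := fun a b => LinearMap.ext fun f => LinearMap.ext fun u => by simp }
  obtain ⟨f₀, hf₀, h0, hfix⟩ := Perm.exists_fixed_ne_zero_of_isPGroup (hΓ.to_subgroup π.ker) ρH
    { carrier := {f | ∀ m w, f (τ m w) = σ m (f w)}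
      add_mem' := fun ha hb m w => by simp [ha m w, hb m w]
      zero_mem' := fun m w => by simp
      smul_mem' := fun c f hf m w => by simp [hf m w] }
    (fun h => by
      obtain ⟨u, hu⟩ := exists_ne (0 : U)
      have h1 : f = 0 := (Submodule.mem_bot K).1 (h.le hf)
      exact hu (hfi (by simp [h1])))
    (fun c f hf m w => by
      change ρ c (f (τ m w)) = σ m (ρ c (f w))
      rw [hρ', ← hf, hP c⁻¹ m (MulEquiv.congr_fun (MonoidHom.mem_ker.1 (inv_mem c.2)) _)])
  replace hfix : ∀ c ∈ π.ker, ∀ u, ρ c (f₀ u) = f₀ u := fun c hc u =>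
    LinearMap.congr_fun (hfix ⟨c, hc⟩) u
  obtain ⟨r, hr⟩ := f₀.exists_leftInverse_of_injective
    (LinearMap.ker_eq_bot.2 ((hτ.injective_or_eq_zero hf₀).resolve_right h0))
  let V' := Submodule.span K {v | ∃ γ u, ρ γ (f₀ u) = v}
  have hV : ∀ (h : End K V) (X : Submodule K V), (∀ γ u, h (ρ γ (f₀ u)) ∈ X) → V' ≤ X.comap h :=
    fun h X H => Submodule.span_le.2 fun _ ⟨γ, u, e⟩ => e ▸ H γ u
  have hV1 : ∀ γ, V' ≤ V'.comap (ρ γ) := fun γ => hV _ _ fun δ u =>
    Submodule.subset_span ⟨γ * δ, u, by simp⟩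
  have hV2 : ∀ m, V' ≤ V'.comap (σ m) := fun m => hV _ _ fun δ u =>
    Submodule.subset_span ⟨δ, τ (φ δ⁻¹ m) u, by rw [hρ', hf₀]⟩
  have hV3 : ∀ {h : End K V}, (∀ γ u, h (ρ γ (f₀ u)) = ρ γ (f₀ u)) → ∀ v ∈ V', h v = v :=
    fun {h} H v hv => sub_eq_zero.1 ((Submodule.mem_bot K).1
      (hV (h - 1) ⊥ (fun γ u => (Submodule.mem_bot K).2 (sub_eq_zero.2 (H γ u))) hv))
  let σ' := σ.subrepresentation V' hV2
  let θ' := ρ.subrepresentation V' hV1
  have hσ' : ∀ m m', τ m = τ m' → σ' m = σ' m' := fun m m' h => by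
    have h1 : σ' (m'⁻¹ * m) = 1 := LinearMap.ext fun v => Subtype.ext (hV3 (fun γ u => by
      rw [hρ', ← hf₀, apply_mem_ker_of_mem_repStab (hS _)
        (by rw [map_mul, h, ← map_mul, inv_mul_cancel, map_one]), End.one_apply]) v v.2)
    rw [← mul_inv_cancel_left m' m, map_mul, h1, mul_one]
  have hθ : ∀ γ m, θ' γ * σ' m = σ' (φ γ m) * θ' γ := fun γ m =>
    LinearMap.ext fun v => Subtype.ext (LinearMap.congr_fun (hρ γ m) v)
  have hker : π.ker ≤ MonoidHom.ker θ' := fun c hc => LinearMap.ext fun v => Subtype.ext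
    (hV3 (fun γ u => by
      conv_rhs => rw [← hfix _ (Normal.conj_mem' inferInstance c hc γ) u]
      simp only [← End.mul_apply, ← map_mul, mul_assoc, mul_inv_cancel_left]) v v.2)
  let θ := (QuotientGroup.lift _ θ' hker).comp
    (QuotientGroup.quotientKerEquivRange π).symm.toMonoidHom
  have hθ' : ∀ γ, θ (π.rangeRestrict γ) = θ' γ := fun γ =>
    congrArg (QuotientGroup.lift _ θ' hker) ((MulEquiv.symm_apply_eq _).2 rfl :
      (QuotientGroup.quotientKerEquivRange π).symm (π.rangeRestrict γ) = γ)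
  let f₁ : U →ₗ[K] V' := f₀.codRestrict V' fun u => Submodule.subset_span ⟨1, u, by simp⟩
  let t : End K V' →+ K := AddMonoidHom.mk'
    (fun h => LinearMap.trace K U (r ∘ₗ V'.subtype ∘ₗ h ∘ₗ f₁))
    (fun a b => by simp only [LinearMap.add_comp, LinearMap.comp_add, map_add])
  have ht : ∀ m, t (σ' m) = LinearMap.trace K U (τ m) := fun m =>
    congrArg (LinearMap.trace K U) (LinearMap.ext fun u =>
      (congrArg r (hf₀ m u).symm).trans (LinearMap.congr_fun hr _))
  refine ⟨V', σ', θ, t, ⟨oddGrp_of_isPGroup hq2 (hM.to_quotient _), ?_,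
    QuotientGroup.mk'_surjective _, fun γ m => ?_, fun γ m h => ?_, fun γ m m' h h' => ?_, ?_,
    fun m h => ?_⟩, fun γ v => by rw [hθ']; rfl, fun h H v hv =>
    (Submodule.mem_bot K).1 (hV h ⊥ (fun γ u => (Submodule.mem_bot K).2 (H f₀ hf₀ γ u)) hv)⟩
  · rw [← map_ofNat (algebraMap K (End K V')) 2, CharTwo.two_eq_zero, map_zero]
  · obtain ⟨γ, rfl⟩ := π.rangeRestrict_surjective γ
    exact ⟨φ γ m, by rw [hθ', hθ], rfl⟩
  · obtain ⟨γ, rfl⟩ := π.rangeRestrict_surjective γ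
    rw [hθ', Commute, SemiconjBy, hθ, hσ' _ _ (hP γ m h)]
  · obtain ⟨γ, rfl⟩ := π.rangeRestrict_surjective γ
    have h1 := commute_of_neg_pos commutator_mem_scalarSub (hS γ)
      ((quotAct_neg_iff ⟨_, hS γ⟩ m).1 h) ((quotAct_pos_iff ⟨_, hS γ⟩ m').1 h')
    rw [Commute, SemiconjBy, ← map_mul, ← map_mul] at h1 ⊢
    exact hσ' _ _ h1
  · rw [← map_one σ', ht, map_one, LinearMap.trace_one]
    exact hτ.finrank_ne_zero hc
  · rw [ht]
    exact hτ.trace_eq_zero commutator_mem_scalarSub fun h1 => h ((QuotientGroup.eq_one_iff m).2 h1)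

theorem exists_sq (hq2 : q ≠ 2) (hM : IsPGroup q M) (hΓ : IsPGroup 2 Γ)
    (hρ : ∀ l m, ρ l * σ m = σ (φ l m) * ρ l) (hτ : IrrRep τ) {f : U →ₗ[K] V}
    (hf : ∀ m w, f (τ m w) = σ m (f w)) (hfi : Function.Injective f) [(scalarSub τ).Normal]
    [IsMulCommutative (M ⧸ scalarSub τ)] {m : ℕ} (hv : Ann ρ (m + 2) 1) {A : Subgroup Γ}
    [A.Normal] (hA4 : ∀ a ∈ A, a * a * (a * a) = 1) {y n : Γ} (hy : y ∈ derivedSeries Γ m)
    (hn : n ∈ derivedSeries Γ m) (hnA : n ∈ A) : ∃ (h : φ ⁅y, n⁆ ∈ repStab τ) (x : Γ)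
      (h' : φ x ∈ repStab τ), x ∈ A ∧ quotAct τ ⟨_, h⟩ = quotAct τ (⟨_, h'⟩ * ⟨_, h'⟩) := by
  have := Fintype.ofFinite M
  obtain ⟨j, hj, hS, h1⟩ := exists_level (card_ne_zero hq2 hM) hΓ hρ hτ hf hfi hv
  obtain ⟨V', σ', θ, t, C, h2, h3⟩ := exists_ctx (ρ := ρ.comp (derivedSeries Γ j).subtype)
    (φ := φ.comp (derivedSeries Γ j).subtype) hq2 hM (hΓ.to_subgroup _) (fun l => hρ l) hτ hf hfi
    fun γ => hS γ.2
  let π := (quotAct τ).comp ((φ.comp (derivedSeries Γ j).subtype).codRestrict _ fun γ => hS γ.2)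
  obtain ⟨k, hk⟩ := Nat.exists_eq_add_of_lt hj
  have h4 : Ann θ (k + 1) 1 := by
    refine Ann.of_rel (θ := ρ) j (fun h h' => Commute h (charProj τ σ) ∧
      ∀ v : V', (h' v : V) = h v) (fun h h' H H' => LinearMap.ext fun v => Subtype.ext
        ((H.2 v).trans (h3 h (fun f hf s u => h1 h H.1 H' f hf s (hS s.2) u) v v.2)))
      (fun i y' hy' => ?_) ⟨Commute.one_left _, fun _ => rfl⟩ (by rwa [← add_assoc, ← hk])
    obtain ⟨γ, hγ, rfl⟩ := derivedSeries_le_map_derivedSeries π.rangeRestrict_surjective i hy'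
    refine ⟨γ, map_derivedSeries_derivedSeries Γ j i ▸ mem_map_of_mem _ hγ, fun h h' H =>
      ⟨H.1.mul_left (Commute.sub_left (mul_charProj (hρ γ) (hS γ.2)) (Commute.one_left _)),
        fun v => ?_⟩⟩
    rw [End.mul_apply, H.2, LinearMap.sub_apply, Submodule.coe_sub, h2]
    rfl
  have ha : ⁅y, n⁆ ∈ derivedSeries Γ j := derivedSeries_antitone Γ (show j ≤ m + 1 by omega)
    (commutator_mem_commutator hy hn)
  refine ⟨hS ha, ?_⟩
  rcases k with _ | k
  · refine ⟨1, by simp, A.one_mem, ?_⟩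
    have h5 : θ (π.rangeRestrict ⟨_, ha⟩) = θ 1 := by
      simpa [Ann, sub_eq_zero] using h4 (π.rangeRestrict ⟨_, ha⟩) (mem_top _)
    exact (congrArg Subtype.val (C.injective h5)).trans
      ((map_one (quotAct τ)).symm.trans (congrArg _ (Subtype.ext (by simp))))
  obtain rfl : m = j + k := by omega
  rw [← map_derivedSeries_derivedSeries] at hy hn
  obtain ⟨y, hy, rfl⟩ := hy
  obtain ⟨n, hn, rfl⟩ := hn
  have : Finite π.range := Finite.of_surjective _ π.rangeRestrict_surjective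
  have := (inferInstance : (A.subgroupOf (derivedSeries Γ j)).Normal).map _
    π.rangeRestrict_surjective
  obtain ⟨_, ⟨x, hx, rfl⟩, h5⟩ := C.core
    ((hΓ.to_subgroup _).of_surjective _ π.rangeRestrict_surjective)
    (A := (A.subgroupOf _).map π.rangeRestrict) (by
      rintro _ ⟨a, ha, rfl⟩
      rw [← map_mul, ← map_mul, ← map_one π.rangeRestrict]
      exact congrArg _ (Subtype.ext (hA4 a ha))) h4
    (map_derivedSeries_le_derivedSeries _ k (mem_map_of_mem _ hy))
    (map_derivedSeries_le_derivedSeries _ k (mem_map_of_mem _ hn)) (mem_map_of_mem _ hnA)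
  rw [← map_commutatorElement, ← map_mul] at h5
  refine ⟨x, hS x.2, hx, (congrArg Subtype.val h5).trans ?_⟩
  exact congrArg (quotAct τ) (Subtype.ext (map_mul φ _ _))

theorem not_vanishing [FiniteDimensional K V] (hq2 : q ≠ 2) (hM : IsPGroup q M)
    (hM1 : ∀ a b c : M, Commute ⁅a, b⁆ c) (hσ : Function.Injective σ) {L : Type*} [Group L]
    [Finite L] (ρ : Representation K L V) (φ : L →* MulAut M)
    (hρ : ∀ l m, ρ l * σ m = σ (φ l m) * ρ l) {A B : Subgroup L} [hAn : A.Normal]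
    (hA : IsPGroup 2 A) (hA4 : ∀ a ∈ A, a * a * (a * a) = 1)
    (hB : ∀ A₁ : Subgroup L, A₁.Normal → A₁ < A → A₁ ≤ B) (hAM : ¬ A ≤ φ.ker) {m : ℕ}
    (hΓ : IsPGroup 2 Γ) (hv : ∀ ψ : Γ →* L, Ann (ρ.comp ψ) (m + 2) 1) {ψ : Γ →* L}
    (hψ : Function.Injective ψ) {y n : Γ} (hy : y ∈ derivedSeries Γ m) 
    (hn : n ∈ derivedSeries Γ m) (hnA : ψ n ∈ A) (hN : ψ ⁅y, n⁆ ∉ B) : False := by
  have hc : (Nat.card M : K) ≠ 0 := card_ne_zero hq2 hM
  have hNA : ψ ⁅y, n⁆ ∈ A := by
    simpa [commutatorElement_def] using mul_mem (hAn.conj_mem _ hnA (ψ y)) (inv_mem hnA)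
  have hirr : ∀ (U : Submodule K V) (hU : ∀ m, U ≤ U.comap (σ m)),
      IrrRep (σ.subrepresentation U hU) → ∀ a b : M,
        ⁅a, b⁆ ∈ scalarSub (σ.subrepresentation U hU) :=
    fun U hU hi a b => hi.mem_scalarSub_of_comm (hM1 a b)
  have key : ∀ (U : Submodule K V) (hU : ∀ m, U ≤ U.comap (σ m)),
      IrrRep (σ.subrepresentation U hU) → ∀ [(scalarSub (σ.subrepresentation U hU)).Normal],
      ∀ X : Subgroup L, ¬ A ≤ X → ∃ a ∉ X, a ∈ A ∧
        ∃ (h : φ a ∈ repStab (σ.subrepresentation U hU)) (x : L)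
          (h' : φ x ∈ repStab (σ.subrepresentation U hU)), x ∈ A ∧
          quotAct _ ⟨_, h⟩ = quotAct (σ.subrepresentation U hU) (⟨_, h'⟩ * ⟨_, h'⟩) := by
    intro U hU hi _ X hX
    obtain ⟨l, hl⟩ := exists_conj_notMem hB hX hNA hN
    have := isMulCommutative_quot (hirr U hU hi)
    let ψ' := (MulAut.conj l).toMonoidHom.comp ψ
    obtain ⟨h, x, h', h1, h2⟩ := exists_sq (ρ := ρ.comp ψ') (φ := φ.comp ψ') hq2 hM hΓ
      (fun l => hρ _) hi (f := U.subtype) (fun _ _ => rfl) U.injective_subtype (hv ψ')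
      (A := A.comap ψ') (fun a ha => (show Function.Injective ψ' from
        (MulAut.conj l).injective.comp hψ) (by simpa only [map_mul, map_one] using hA4 _ ha)) hy hn (hAn.conj_mem _ hnA l)
    exact ⟨_, hl, hAn.conj_mem _ hNA l, h, ψ' x, h', h1, h2⟩
  have hstab : ∀ (U : Submodule K V) (hU : ∀ m, U ≤ U.comap (σ m)),
      IrrRep (σ.subrepresentation U hU) → A ≤ (repStab (σ.subrepresentation U hU)).comap φ := by
    intro U hU hi
    by_contra hX
    have := normal_scalarSub (hirr U hU hi)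
    obtain ⟨a, ha, -, h, -⟩ := key U hU hi _ hX
    exact ha h
  obtain ⟨a, ha, ha1⟩ := SetLike.not_le_iff_exists.1 hAM
  obtain ⟨i, hi⟩ := PG.exists_pow_pow_eq_one_of_mem hA ha
  obtain ⟨U, hU, hτ, x₀, hx₀⟩ := exists_constituent hq2 hM hc hσ (α := φ a) (j := i)
    (by rw [← map_pow, hi, map_one]) ha1 fun U hU hi => hstab U hU hi ha
  have := normal_scalarSub (hirr U hU hτ)
  have := isMulCommutative_quot (hirr U hU hτ)
  have hAS := hstab U hU hτ
  replace key := key U hU hτ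
  set τ := σ.subrepresentation U hU
  let π : A →* MulAut (M ⧸ scalarSub τ) :=
    (quotAct τ).comp ((φ.comp A.subtype).codRestrict _ fun a => hAS a.2)
  have : Finite π.range := Finite.of_surjective _ π.rangeRestrict_surjective
  have : Nontrivial π.range := ⟨π.rangeRestrict ⟨a, ha⟩, 1, fun h => hx₀
    ((quotAct_pos_iff ⟨φ a, hAS ha⟩ x₀).1 (MulEquiv.congr_fun (congrArg Subtype.val h) x₀))⟩
  obtain ⟨b, hb, hbA, h, x, h', hx, h1⟩ := key
    (((frattini π.range).comap π.rangeRestrict).map A.subtype) fun h =>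
      PG.frattini_ne_top (G := π.range) (eq_top_iff.2 fun ⟨_, s, rfl⟩ _ => by
        obtain ⟨t, ht, h⟩ := h s.2
        exact Subtype.ext h ▸ ht)
  refine hb ⟨⟨b, hbA⟩, ?_, rfl⟩
  have h2 : π.rangeRestrict ⟨b, hbA⟩ = π.rangeRestrict ⟨x, hx⟩ ^ 2 :=
    Subtype.ext (h1.trans (by rw [map_mul, sq]; rfl))
  rw [SetLike.mem_coe, mem_comap, h2]
  exact PG.pow_mem_frattini (hA.of_surjective _ π.rangeRestrict_surjective) _

omit hq in
theorem ann_of_sylow {E H : Type*} [Ring E] [Group H] {ρ : H →* E} {N : ℕ}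
    (h : ∀ P : Sylow 2 H, Ann (ρ.comp (P : Subgroup H).subtype) N 1) (hΓ : IsPGroup 2 Γ)
    (ψ : Γ →* H) : Ann (ρ.comp ψ) N 1 := by
  obtain ⟨P, hP⟩ := (hΓ.of_surjective _ ψ.rangeRestrict_surjective).exists_le_sylow
  exact (h P).of_range_le (by rwa [range_subtype])

omit hq in
theorem pLengthLE_of_ann (m : ℕ) : ∀ (H : Type u) [Group H] [Finite H] [Group.IsSolvable H]
    (V : Type u) [AddCommGroup V] [Module (ZMod 2) V] [Finite V]
    (ρ : Representation (ZMod 2) H V), Function.Injective ρ → pCore 2 H = ⊥ →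
    (∀ P : Sylow 2 H, Ann (ρ.comp (P : Subgroup H).subtype) (m + 1) 1) → PLengthLE 2 m H := by
  induction m with
  | zero =>
    intro H _ _ _ V _ _ _ ρ hρ _ h
    refine pLengthLE_zero_iff.2 (PExp.coprime_card fun x k hx => hρ ?_)
    simpa [Ann, sub_eq_zero] using ann_of_sylow h (isPGroup_zpowers_of_pow_eq_one hx)
      (zpowers x).subtype ⟨x, mem_zpowers x⟩ (mem_top _)
  | succ m ih =>
    intro H _ _ _ V _ _ _ ρ hρ hO h
    by_contra hcon
    obtain ⟨L, A, B, _, _, q, _, Q, _, hq2, hQ, hQ1, -, hA, hA4, -, hBA, hB, hAQ, hl⟩ :=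
      exists_setup hO hcon
    obtain ⟨V₂, _, _, _, ρ₂, κ, hρ₂, hO₂, hκ1, hκ2, hκ3, hκ4⟩ := exists_module hA hBA hB
    refine hl (ih _ V₂ ρ₂ hρ₂ hO₂ fun P₂ => ?_)
    obtain ⟨P, rfl⟩ := Sylow.mapSurjective_surjective (QuotientGroup.mk'_surjective _) 2 P₂
    refine Ann.of_range_le (χ := (QuotientGroup.mk' _).comp (P : Subgroup L).subtype)
      (by rw [MonoidHom.range_comp, range_subtype, range_subtype]; rfl) ?_
    have h1 : ∀ y : L, ∀ n ∈ A, ⁅y, n⁆ ∈ A ∧ κ ⁅y, n⁆ = (ρ₂ y - 1) (κ n) := fun y n hn => by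
      have h2 := Normal.conj_mem inferInstance n hn y
      refine ⟨mul_mem h2 (inv_mem hn), ?_⟩
      rw [LinearMap.sub_apply, End.one_apply, eq_sub_iff_add_eq, ← hκ4 y n hn,
        commutatorElement_def, ← hκ1 _ (mul_mem h2 (inv_mem hn)) n hn, inv_mul_cancel_right]
    intro y hy
    refine ann_of_rel _ (fun (n : P) v => (n : L) ∈ A ∧ κ n = v) (fun v => ?_)
      (fun y n v H => H.2 ▸ h1 y n H.1) ?_
    · obtain ⟨a, ha, rfl⟩ := hκ3 v
      exact ⟨⟨a, (hA.le_sylow_of_normal P) ha⟩, ha, rfl⟩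
    rintro n hn _ ⟨hnA, rfl⟩
    rw [one_mul]
    refine (h1 y n hnA).2.symm.trans ((hκ2 _ (h1 y n hnA).1).2 (by_contra fun hN => ?_))
    let K := AlgebraicClosure (ZMod 2)
    have hinj : Function.Injective (repBaseChange K ρ) := fun a b hab => hρ
      (endBaseChangeHom_injective K hab)
    refine not_vanishing (K := K) hq2 hQ hQ1 (σ := (repBaseChange K ρ).comp Q.subtype)
      (hinj.comp Q.subtype_injective) ((repBaseChange K ρ).comp L.subtype) _
      (fun l x => ?_) hA hA4 hB hAQ (m := m) P.2 (fun ψ => ?_) (Subgroup.subtype_injective _)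
      hy hn hnA hN
    · change repBaseChange K ρ l * repBaseChange K ρ x =
        repBaseChange K ρ (l * x * (l : H)⁻¹) * repBaseChange K ρ l
      simp [← map_mul]
    · refine Ann.of_rel 0 (fun a b => Module.End.baseChangeHom (ZMod 2) K V a = b)
        (fun a b e (H : a = 0) => by rw [← e, H, map_zero])
        (fun i y hy => ⟨y, (zero_add i).symm ▸ hy, fun a b e => ?_⟩) (map_one _)
        ((zero_add (m + 2)).symm ▸ ann_of_sylow h P.2 (L.subtype.comp ψ))
      rw [map_mul, map_sub, map_one, e]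
      rfl

omit hq in
theorem pLengthLE_of_derivedSeries {G : Type u} [Group G] [Finite G] (hG : IsPSolvable 2 G)
    {d : ℕ} (h : ∀ P : Sylow 2 G, derivedSeries (P : Subgroup G) d = ⊥) : PLengthLE 2 d G := by
  rcases d with _ | d
  · refine pLengthLE_zero_iff.2 (PExp.coprime_card (pExp_of_sylow fun P x hx => ?_))
    simpa using congrArg Subtype.val (mem_bot.1 ((h P).le (mem_top (⟨x, hx⟩ : P))))
  obtain ⟨X, _, _, f, hf, hV, hC, hcomap⟩ := exists_frattini_quotient hG
  have := isSolvable_of_isPSolvable_two (hG.of_surjective hf)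
  have hs := (QuotientGroup.mk'_surjective (pCore 2 X)).comp hf
  refine (pLengthLE_succ_iff_of_ker_eq (f := (QuotientGroup.mk' (pCore 2 X)).comp f) hs
    (by rw [← MonoidHom.comap_ker, QuotientGroup.ker_mk', hcomap])).2
    (pLengthLE_of_ann d _ (EAV hV) (eaRepQ hV) (eaRepQ_injective hC) pCore_quotient_pCore
      fun P₂ => ?_)
  obtain ⟨P, rfl⟩ := Sylow.mapSurjective_surjective
    (f := (QuotientGroup.mk' (pCore 2 X)).comp f) hs 2 P₂
  refine Ann.of_range_le (χ := ((QuotientGroup.mk' _).comp f).comp (P : Subgroup G).subtype)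
    (by rw [MonoidHom.range_comp, range_subtype, range_subtype]; rfl)
    (ann_of_rel _ (fun (n : P) v => f n = v.val) (fun v => ?_)
      (fun y n v H => ?_) fun n hn v H => ?_)
  · obtain ⟨g, hg, e⟩ := pCore_le_sylow (P.mapSurjective hf) v.val_mem
    exact ⟨⟨g, hg⟩, e⟩
  · refine Eq.trans ?_ (val_eaRepN_sub_one (f y) v).symm
    rw [← H, ← map_commutatorElement]
    rfl
  · rw [End.one_apply, ← EAV.val_eq_one_iff, ← H, mem_bot.1 ((h P).le hn)]
    exact map_one f

end Cfsg.Agent.GT.TL
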